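import Cfsg.Agent.Lib.FTw.Defs
import Cfsg.Agent.Lib.PLocal.BaerSuzuki

/-! # `F₂` criterion: elementary lemmas -/

set_option autoImplicit false

namespace Cfsg.Lib.FTw

open Subgroup Cfsg.Lib.Core
open scoped Cfsg.Lib.Transfer commutatorElement

variable {G : Type*} [Group G] {p q : ℕ} {x : G} {K L H A : Subgroup G}

theorem zp_le_norm (h : x ∈ normalizer (K : Set G)) : zpowers x ≤ normalizer (K : Set G) :=
  zpowers_le_of_mem h

theorem zp_le_cent {c : G} (h : Commute c x) : c ∈ centralizer (zpowers x : Set G) := by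
  rw [centralizer_zpowers, mem_centralizer_singleton_iff]; exact h

theorem comm_of_cent {c : G} (h : c ∈ centralizer (zpowers x : Set G)) : Commute c x := by
  rwa [centralizer_zpowers, mem_centralizer_singleton_iff] at h

theorem cent_le_norm_zp : centralizer (zpowers x : Set G) ≤ normalizer (zpowers x : Set G) :=
  centralizer_le_normalizer _

theorem cm_le_of_mem {N : Subgroup G} (hx : x ∈ N) (hK : K ≤ normalizer (N : Set G)) :
    ⁅K, zpowers x⁆ ≤ N := by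
  rw [commutator_le]
  intro k hk y hy
  have hy' : y ∈ N := zpowers_le_of_mem hx hy
  rw [commutatorElement_def]
  exact N.mul_mem ((mem_normalizer_iff.1 (hK hk) y).1 hy') (N.inv_mem hy')

theorem cm_le (h : zpowers x ≤ normalizer (K : Set G)) : ⁅K, zpowers x⁆ ≤ K :=
  Coprime.commutator_le_of_le_normalizer h

theorem norm_cm {c : G} (h1 : c ∈ normalizer (K : Set G)) (h2 : Commute c x) :
    c ∈ normalizer ((⁅K, zpowers x⁆ : Subgroup G) : Set G) :=
  le_normalizer_commutator (zp_le_norm h1) (zp_le_norm (cent_le_norm_zp (zp_le_cent h2)))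
    (mem_zpowers c)

theorem pow_mul_mem {a k : G} (ha : a ∈ normalizer (K : Set G)) (hk : k ∈ K) (n : ℕ) :
    (k * a) ^ n * (a ^ n)⁻¹ ∈ K := by
  induction n with
  | zero => simp
  | succ n ih =>
    have : (k * a) ^ (n + 1) * (a ^ (n + 1))⁻¹ = k * (a * ((k * a) ^ n * (a ^ n)⁻¹) * a⁻¹) := by
      rw [pow_succ' (k * a), pow_succ' a]; group
    rw [this]
    exact K.mul_mem hk ((mem_normalizer_iff.1 ha _).1 ih)

variable [Finite G]

theorem cop_zp (hx : orderOf x = p) (hK : (Nat.card K).Coprime p) :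
    (Nat.card (zpowers x)).Coprime (Nat.card K) := by
  rw [Nat.card_zpowers, hx]; exact hK.symm

omit [Finite G] in
theorem solv_zp (x : G) (K : Subgroup G) :
    Group.IsSolvable (zpowers x) ∨ Group.IsSolvable K :=
  Or.inl (isSolvable_of_isMulCommutative _)

theorem cm_cm (hx : orderOf x = p) (hK : (Nat.card K).Coprime p)
    (h : zpowers x ≤ normalizer (K : Set G)) : ⁅⁅K, zpowers x⁆, zpowers x⁆ = ⁅K, zpowers x⁆ :=
  Coprime.commutator_commutator_eq' h (cop_zp hx hK)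

theorem km_cm (hx : orderOf x = p) (hn : Group.IsNilpotent K) (hK : (Nat.card K).Coprime p)
    (h : zpowers x ≤ normalizer (K : Set G)) : Km p x ⁅K, zpowers x⁆ :=
  ⟨isNilpotent_of_le (cm_le h) hn, coprime_of_le (cm_le h) hK,
    normalizer_commutator_ge_right _ _, cm_cm hx hK h⟩

theorem le_of_cm_le (hx : orderOf x = p) (hK : (Nat.card K).Coprime p)
    (h : zpowers x ≤ normalizer (K : Set G)) (h1 : ⁅K, zpowers x⁆ ≤ L)
    (h2 : ∀ c ∈ K, Commute c x → c ∈ L) : K ≤ L := by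
  rw [← Coprime.commutator_sup_centralizer h (cop_zp hx hK) (solv_zp x K)]
  exact sup_le h1 fun c hc => h2 c hc.1 (comm_of_cent hc.2)

variable [Fact p.Prime]

theorem kq_cm [Fact q.Prime] (hq : q ≠ p) (hx : orderOf x = p) (hxA : x ∈ A)
    (hA : A ≤ centralizer (zpowers x : Set G)) (hK : IsPGroup q K)
    (h : A ≤ normalizer (K : Set G)) : Kq q A x ⁅K, zpowers x⁆ :=
  ⟨hK.to_le (cm_le (zp_le_norm (h hxA))), le_normalizer_commutator h (hA.trans cent_le_norm_zp),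
    cm_cm hx (cop_of_pgroup hq hK) (zp_le_norm (h hxA))⟩

theorem Kq.km [Fact q.Prime] (hq : q ≠ p) (h : Kq q A x K) (hxA : x ∈ A) : Km p x K :=
  ⟨h.pg.isNilpotent, cop_of_pgroup hq h.pg, zp_le_norm (h.inv hxA), h.cm⟩

omit [Finite G] in
theorem pg_zp (hx : orderOf x = p) : IsPGroup p (zpowers x) :=
  IsPGroup.of_card (n := 1) (by rw [Nat.card_zpowers, hx, pow_one])

omit [Fact p.Prime] in
theorem eq_of_pg {P F : Subgroup G} (hP : IsPGroup p P) (hF : (Nat.card F).Coprime p) {a b : G}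
    (ha : a ∈ P) (hb : b ∈ P) (h : a⁻¹ * b ∈ F) : a = b := by
  have : a⁻¹ * b ∈ P ⊓ F := ⟨P.mul_mem (P.inv_mem ha) hb, h⟩
  rw [inf_eq_bot_of_isPGroup_of_coprime hP hF, mem_bot] at this
  exact inv_mul_eq_one.1 this

/-- two `p`-subgroups of `X`, where `X / F` is a `p`-group, are `F`-conjugate into a common
`p`-subgroup. -/
theorem exists_conj_pg {X F P Q : Subgroup G} (hp : ∀ g ∈ X, ∃ n, g ^ p ^ n ∈ F)
    (hP : IsPGroup p P) (hPX : P ≤ X) (hQ : IsPGroup p Q) (hQX : Q ≤ X) :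
    ∃ f ∈ F ⊓ X, ∃ T : Subgroup G, IsPGroup p T ∧ P ≤ T ∧ f ⋆ Q ≤ T := by
  obtain ⟨T, hPT, hTX, hT, hTi⟩ := Transfer.exists_sylowIn_ge hP hPX
  obtain ⟨f, hf, hfQ⟩ := Transfer.exists_conj_le_of_sylowIn_pResidual hTX hTi hQ hQX
  refine ⟨f, ?_, T, hT, hPT, hfQ⟩
  have : pResidual p X ≤ F.subgroupOf X := Transfer.pResidual_le_iff.2 fun g hg => by
    obtain ⟨n, hn⟩ := hp g g.2
    rw [mem_subgroupOf]
    exact mem_of_pow_mem hn (by rw [orderOf_coe]; exact hg.pow_right n)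
  obtain ⟨f, hf, rfl⟩ := hf
  exact ⟨mem_subgroupOf.1 (this hf), f.2⟩

/-- `x` and `x ^ k` are conjugate inside `⟨x, x ^ k⟩`. -/
theorem exists_conj_mem (hx : orderOf x = p) (hK : (Nat.card K).Coprime p)
    (h : zpowers x ≤ normalizer (K : Set G)) {k : G} (hk : k ∈ K) (hxH : x ∈ H)
    (hkH : k * x * k⁻¹ ∈ H) : ∃ j ∈ K ⊓ H, j * x * j⁻¹ = k * x * k⁻¹ := by
  have hx' : orderOf (k * x * k⁻¹) = p := by
    rw [← hx]; exact (orderOf_injective (MulAut.conj k).toMonoidHom (MulAut.conj k).injective x)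
  have hxn := h (mem_zpowers x)
  obtain ⟨f, hf, T, hT, h1, h2⟩ := exists_conj_pg (p := p) (X := (K ⊔ zpowers x) ⊓ H) (F := K)
    (fun g hg => by
      obtain ⟨a, ha, y, hy, rfl⟩ := Transfer.exists_mul_of_mem_sup h hg.1
      refine ⟨1, ?_⟩
      have := pow_mul_mem (h hy) ha p
      rwa [show y ^ p = 1 by
        obtain ⟨i, rfl⟩ := hy
        rw [← hx, ← zpow_natCast, ← zpow_mul, mul_comm, zpow_mul, zpow_natCast,
          pow_orderOf_eq_one, one_zpow], inv_one, mul_one, ← pow_one p] at this)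
    (pg_zp hx') (zpowers_le_of_mem ⟨mul_mem (mul_mem (mem_sup_left hk)
      (mem_sup_right (mem_zpowers x))) (mem_sup_left (K.inv_mem hk)), hkH⟩)
    (pg_zp hx) (zpowers_le_of_mem ⟨mem_sup_right (mem_zpowers x), hxH⟩)
  refine ⟨f, ⟨hf.1, hf.2.2⟩, (eq_of_pg hT hK (h1 (mem_zpowers _))
    (h2 (Transfer.conj_mem_conj.2 (mem_zpowers x))) ?_).symm⟩
  have : (k * x * k⁻¹)⁻¹ * (f * x * f⁻¹) = k * (x⁻¹ * (k⁻¹ * f) * x⁻¹⁻¹) * f⁻¹ := by group
  rw [this]
  exact K.mul_mem (K.mul_mem hk ((mem_normalizer_iff.1 (inv_mem hxn) _).1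
    (K.mul_mem (K.inv_mem hk) hf.1))) (K.inv_mem hf.1)

/-- if `x` centralizes `Fp p H` then `x ∈ O_p(H)`. -/
theorem mem_Op (hx : IsPGroup p (zpowers x)) (hN : x ∈ Np p H)
    (h : ⁅Fp p H, zpowers x⁆ = ⊥) : x ∈ Oq p H := by
  set N := Np p H ⊓ centralizer (Fp p H : Set G) with hNdef
  have hxN : x ∈ N := ⟨hN, by
    rw [commutator_comm, commutator_eq_bot_iff_le_centralizer] at h
    exact h (mem_zpowers x)⟩
  have hnil : Group.IsNilpotent N := by
    have : IsPGroup p (N ⧸ center N) := fun g => by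
      obtain ⟨g, rfl⟩ := QuotientGroup.mk_surjective g
      obtain ⟨n, hn⟩ := pow_mem_Fp g.2.1
      refine ⟨n, ?_⟩
      rw [← QuotientGroup.mk_pow, QuotientGroup.eq_one_iff, mem_center_iff]
      intro y
      exact Subtype.ext ((mem_centralizer_iff.1 y.2.2 _ hn).symm)
    exact Group.of_quotient_center_nilpotent this.isNilpotent
  have : N ≤ fittingOf H := le_fittingOf (inf_le_left.trans (Np_le H))
    (le_normalizer_inf (le_norm_Np H) (le_normalizer_centralizer (le_norm_Fp H))) hnil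
  exact le_pCoreOf_of_le_fittingOf ((zpowers_le_of_mem hxN).trans this) hx (mem_zpowers x)

/-- a minimal member `U` above `J`, and the normal closure `V` of `J` in `U`. -/
theorem exists_UV [Fact q.Prime] (hq : q ≠ p) (hx : orderOf x = p) (hxA : x ∈ A)
    (hA : A ≤ centralizer (zpowers x : Set G)) {J R : Subgroup G} (hJ : Kq q A x J)
    (hR : Kq q A x R) (h : J < R) : ∃ U V : Subgroup G, Kq q A x U ∧ J < U ∧ U ≤ R ∧ J ≤ V ∧
      V ≤ U ∧ U ≤ normalizer (V : Set G) ∧ A ≤ normalizer (V : Set G) ∧ ⁅V, zpowers x⁆ = J ∧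
      ∀ W : Subgroup G, J ≤ W → U ≤ normalizer (W : Set G) → V ≤ W := by
  obtain ⟨U, hUR, ⟨hU, hJU⟩, hmin⟩ :=
    exists_minimal_le (P := fun U => Kq q A x U ∧ J < U) ⟨hR, h⟩
  obtain ⟨N, hN1, hN2, hN3⟩ :=
    (SubnormalIn.of_isNilpotent hU.pg.isNilpotent hJU.le).exists_lt hJU.ne
  have hV : (⨆ u : U, (u : G) ⋆ J) < U := (iSup_conj_le hN1.le hN3).trans_lt hN2
  have hAV : A ≤ normalizer ((⨆ u : U, (u : G) ⋆ J : Subgroup G) : Set G) := fun a ha => by
    refine Transfer.mem_normalizer_of_conj_le ?_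
    rw [Subgroup.map_iSup]
    refine iSup_le fun u => le_iSup_of_le
      (⟨a * u * a⁻¹, (mem_normalizer_iff.1 (hU.inv ha) _).1 u.2⟩ : U) (le_of_eq ?_)
    rw [Transfer.conj_conj]
    conv_rhs => rw [← Transfer.conj_eq_self_iff.2 (hJ.inv ha), Transfer.conj_conj]
    simp
  refine ⟨U, _, hU, hJU, hUR, le_iSup_conj J U, hV.le, le_normalizer_iSup_conj J U, hAV, ?_,
    fun W h1 h2 => iSup_conj_le h1 h2⟩
  have hk := kq_cm hq hx hxA hA (hU.pg.to_le hV.le) hAV
  have hJle : J ≤ ⁅(⨆ u : U, (u : G) ⋆ J), zpowers x⁆ :=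
    hJ.cm.symm.le.trans (commutator_mono (le_iSup_conj J U) le_rfl)
  have hlt := (cm_le (zp_le_norm (hAV hxA))).trans_lt hV
  by_contra hne
  exact hlt.ne (hmin _ ⟨hk, lt_of_le_of_ne hJle (Ne.symm hne)⟩ hlt.le)

namespace Ctx

variable {D : Set G} (m : Ctx p D)
include m

omit [Finite G] in
theorem ne_one (hx : x ∈ D) : x ≠ 1 := fun h =>
  (Fact.out : p.Prime).one_lt.ne (by rw [← m.ord x hx, h, orderOf_one])

omit [Finite G] [Fact p.Prime] in
theorem norm_ne (h : L ≠ ⊥) (hs : Group.IsSolvable L) : normalizer (L : Set G) ≠ ⊤ := fun ht =>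
  h (m.rad L (normal_of_top_le_normalizer ht.ge) hs)

omit [Finite G] [Fact p.Prime] in
theorem norm_ne' (h : L ≠ ⊥) (hs : Group.IsNilpotent L) : normalizer (L : Set G) ≠ ⊤ :=
  m.norm_ne h (isSolvable_of_isNilpotent hs)

omit [Fact p.Prime] in
theorem cm_le_Fp (hx : x ∈ D) (hH : H ≠ ⊤) (hxH : x ∈ H) (hL : L ≤ H)
    (hc : (Nat.card L).Coprime p) (hn : zpowers x ≤ normalizer (L : Set G)) :
    ⁅L, zpowers x⁆ ≤ Fp p H :=
  le_Fp_of_cop (cm_le_of_mem (m.good H hH x hx hxH) (hL.trans (le_norm_Np H)))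
    (coprime_of_le (cm_le hn) hc)

omit [Fact p.Prime] in
theorem km_le (hx : x ∈ D) (hH : H ≠ ⊤) (hxH : x ∈ H) (hL : L ≤ H) (h : Km p x L) :
    L ≤ ⁅Fp p H, zpowers x⁆ := by
  have := m.cm_le_Fp hx hH hxH hL h.cop h.inv
  rw [h.cm] at this
  exact h.cm.symm.le.trans (commutator_mono this le_rfl)

omit [Fact p.Prime] in
theorem km_KH (hx : x ∈ D) (hxH : x ∈ H) : Km p x ⁅Fp p H, zpowers x⁆ :=
  km_cm (m.ord x hx) (Fp_nil H) (Fp_cop H) (zp_le_norm (le_norm_Fp H hxH))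

theorem cm_le_Oq [Fact q.Prime] (hq : q ≠ p) (hx : x ∈ D) (hH : H ≠ ⊤) (hxH : x ∈ H)
    (hL : L ≤ H) (hp : IsPGroup q L) (hn : zpowers x ≤ normalizer (L : Set G)) :
    ⁅L, zpowers x⁆ ≤ Oq q H :=
  le_Oq_of_le_Fp (m.cm_le_Fp hx hH hxH hL (cop_of_pgroup hq hp) hn) (hp.to_le (cm_le hn))

theorem kq_le [Fact q.Prime] (hq : q ≠ p) (hx : x ∈ D) (hH : H ≠ ⊤) (hxA : x ∈ A) (hAH : A ≤ H)
    (hL : L ≤ H) (h : Kq q A x L) : L ≤ ⁅Oq q H, zpowers x⁆ := by
  have := m.cm_le_Oq hq hx hH (hAH hxA) hL h.pg (zp_le_norm (h.inv hxA))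
  rw [h.cm] at this
  exact h.cm.symm.le.trans (commutator_mono this le_rfl)

theorem kq_KH [Fact q.Prime] (hq : q ≠ p) (hx : x ∈ D) (hxA : x ∈ A)
    (hA : A ≤ centralizer (zpowers x : Set G)) (hAH : A ≤ H) :
    Kq q A x ⁅Oq q H, zpowers x⁆ :=
  kq_cm hq (m.ord x hx) hxA hA (pCoreOf_isPGroup q H) (hAH.trans (le_normalizer_pCoreOf q H))

/-- (P1) -/
theorem p1 (hx : x ∈ D) (hK : (Nat.card K).Coprime p) (h : zpowers x ≤ normalizer (K : Set G))
    {k c : G} (hk : k ∈ K) (hc : Commute c x) :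
    ∃ H : Subgroup G, H ≠ ⊤ ∧ x ∈ H ∧ c ∈ H ∧ k * x * k⁻¹ ∈ H := by
  obtain ⟨j, hj, he⟩ := exists_conj_mem (H := closure {x, k * x * k⁻¹}) (m.ord x hx) hK h hk
    (subset_closure (by simp)) (subset_closure (by simp))
  have h1 : x ∈ closure ({x, j * c} : Set G) := subset_closure (by simp)
  have h2 : j * c ∈ closure ({x, j * c} : Set G) := subset_closure (by simp)
  have h3 : k * x * k⁻¹ ∈ closure ({x, j * c} : Set G) := by
    have : k * x * k⁻¹ = j * c * x * (j * c)⁻¹ := by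
      rw [← he, mul_assoc j c, hc.eq]; group
    rw [this]; exact mul_mem (mul_mem h2 h1) (inv_mem h2)
  have h4 : j ∈ closure ({x, j * c} : Set G) :=
    (closure_le _).2 (by rintro z (rfl | rfl) <;> assumption) hj.2
  exact ⟨_, m.two x hx _, h1, (mul_mem_cancel_left h4).1 h2, h3⟩

/-- a nontrivial member inside `K ⊓ H`. -/
theorem cm_inf_ne (hx : x ∈ D) (hK : (Nat.card K).Coprime p)
    (h : zpowers x ≤ normalizer (K : Set G)) {k : G} (hk : k ∈ K) (hne : ¬ Commute k x)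
    (hxH : x ∈ H) (hkH : k * x * k⁻¹ ∈ H) : ⁅K ⊓ H, zpowers x⁆ ≠ ⊥ := fun h0 => by
  obtain ⟨j, hj, he⟩ := exists_conj_mem (m.ord x hx) hK h hk hxH hkH
  have := comm_of_cent (commutator_eq_bot_iff_le_centralizer.1 h0 hj)
  rw [this.eq, mul_inv_cancel_right] at he
  exact hne (mul_inv_eq_iff_eq_mul.1 he.symm)

theorem pg_of_cm (hx : x ∈ D) (hH : H ≠ ⊤) (hxH : x ∈ H) (h : ⁅Fp p H, zpowers x⁆ = ⊥) :
    x ∈ Oq p H :=
  mem_Op (pg_zp (m.ord x hx)) (m.good H hH x hx hxH) h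

/-- Baer–Suzuki: there is a nontrivial member. -/
theorem exists_km (hx : x ∈ D) : ∃ K : Subgroup G, Km p x K ∧ K ≠ ⊥ := by
  by_contra hc
  push Not at hc
  have : x ∈ pCore p G := PLocal.mem_pCore_of_forall_isPGroup_closure_conj fun g => by
    have h1 : x ∈ closure ({x, g} : Set G) := subset_closure (by simp)
    have h2 : g ∈ closure ({x, g} : Set G) := subset_closure (by simp)
    have h3 := m.pg_of_cm hx (m.two x hx g) h1 (hc _ (m.km_KH hx h1))
    refine (pCoreOf_isPGroup p (closure ({x, g} : Set G))).to_le ((closure_le _).2 ?_)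
    rintro z (rfl | rfl)
    · exact h3
    · exact (mem_normalizer_iff.1 (le_normalizer_pCoreOf p _ h2) _).1 h3
  rw [m.rad _ inferInstance (isSolvable_of_isPGroup (pCore_isPGroup p G)), mem_bot] at this
  exact m.ne_one hx this

end Ctx

end Cfsg.Lib.FTw
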