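import Cfsg.Agent.Lib.Core.Subnormal
import Cfsg.Agent.Lib.Core.Frattini
import Cfsg.Agent.Lib.Coprime.Generation

/-! # `x ∈ F₂(G)` is detected in two-generated subgroups: definitions

`Fp p H` is the `p'`-part of the Fitting subgroup of `H`, `Np p H` the preimage of
`O_p(H / Fp p H)`; a `p`-element lies in `F₂(H)` iff it lies in `Np p H`. -/

set_option autoImplicit false

namespace Cfsg.Lib.FTw

open Subgroup Cfsg.Lib.Core
open scoped Cfsg.Lib.Transfer commutatorElement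

variable {G : Type*} [Group G] {G' : Type*} [Group G'] {p q : ℕ}

/-- `O_q(H)` as a subgroup of the ambient group. -/
abbrev Oq (q : ℕ) (H : Subgroup G) : Subgroup G := (pCore q H).map H.subtype

/-- The `p'`-part of `F(H)`. -/
def Fp (p : ℕ) (H : Subgroup G) : Subgroup G := fittingOf H ⊓ (pPrimeCore p H).map H.subtype

theorem Fp_le (H : Subgroup G) : Fp p H ≤ H := inf_le_left.trans (fittingOf_le H)

theorem norm_Fp (H : Subgroup G) : normalizer (H : Set G) ≤ normalizer (Fp p H : Set G) :=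
  le_normalizer_inf (normalizer_le_normalizer_fittingOf H)
    (normalizer_le_normalizer_pPrimeCoreOf p H)

theorem le_norm_Fp (H : Subgroup G) : H ≤ normalizer (Fp p H : Set G) :=
  le_normalizer.trans (norm_Fp H)

theorem Fp_nil [Finite G] (H : Subgroup G) : Group.IsNilpotent (Fp p H) :=
  isNilpotent_of_le inf_le_left inferInstance

theorem Fp_cop [Finite G] (H : Subgroup G) : (Nat.card (Fp p H)).Coprime p :=
  coprime_of_le inf_le_right (pPrimeCoreOf_coprime p H)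

theorem le_Fp {H L : Subgroup G} (h : L ≤ H) (hn : H ≤ normalizer (L : Set G))
    (h1 : Group.IsNilpotent L) (h2 : (Nat.card L).Coprime p) : L ≤ Fp p H :=
  le_inf (le_fittingOf h hn h1) (le_pPrimeCoreOf h hn h2)

theorem Fp_inf_le [Finite G] {H K : Subgroup G} (h : K ≤ H) : Fp p H ⊓ K ≤ Fp p K :=
  le_Fp inf_le_right (le_normalizer_inf (h.trans (le_norm_Fp H)) le_normalizer)
    (isNilpotent_of_le inf_le_left (Fp_nil H)) (coprime_of_le inf_le_left (Fp_cop H))

theorem map_Fp_le [Finite G] (f : G →* G') (H : Subgroup G) :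
    (Fp p H).map f ≤ Fp p (H.map f) :=
  (map_inf_le _ _ f).trans (inf_le_inf (map_fittingOf_le f H) (map_pPrimeCoreOf_le f H))

theorem Oq_le_Fp [Finite G] [Fact p.Prime] [Fact q.Prime] (hq : q ≠ p) (H : Subgroup G) :
    Oq q H ≤ Fp p H :=
  le_inf (pCoreOf_le_fittingOf q H) (map_mono (pCore_le_pPrimeCore_of_ne hq))

theorem le_Oq_of_le_Fp [Finite G] [Fact q.Prime] {H L : Subgroup G} (h : L ≤ Fp p H)
    (hL : IsPGroup q L) : L ≤ Oq q H :=
  le_pCoreOf_of_le_fittingOf (h.trans inf_le_left) hL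

instance instNormalFpSub (p : ℕ) (H : Subgroup G) : ((Fp p H).subgroupOf H).Normal :=
  (normal_subgroupOf_iff_le_normalizer (Fp_le H)).2 (le_norm_Fp H)

/-- The preimage in `H` of `O_p(H / Fp p H)`. -/
def Np (p : ℕ) (H : Subgroup G) : Subgroup G :=
  ((pCore p (H ⧸ (Fp p H).subgroupOf H)).comap
    (QuotientGroup.mk' ((Fp p H).subgroupOf H))).map H.subtype

theorem Np_le (H : Subgroup G) : Np p H ≤ H := map_subtype_le _

theorem le_norm_Np (H : Subgroup G) : H ≤ normalizer (Np p H : Set G) :=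
  le_normalizer_map_subtype _

theorem pow_mem_Fp {H : Subgroup G} {g : G} (hg : g ∈ Np p H) : ∃ n, g ^ p ^ n ∈ Fp p H := by
  obtain ⟨g, hg, rfl⟩ := hg
  obtain ⟨n, hn⟩ := isPGroup_subgroup_iff.1 (pCore_isPGroup p _) _ (mem_comap.1 hg)
  refine ⟨n, ?_⟩
  rw [← map_pow, QuotientGroup.mk'_apply, QuotientGroup.eq_one_iff, mem_subgroupOf] at hn
  simpa using hn

theorem le_Np {H N : Subgroup G} (h : N ≤ H) (hn : H ≤ normalizer (N : Set G))
    (hp : ∀ g ∈ N, ∃ n, g ^ p ^ n ∈ Fp p H) : N ≤ Np p H := by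
  have hN : (N.subgroupOf H).Normal := (normal_subgroupOf_iff_le_normalizer h).2 hn
  rw [Np, le_map_subtype_iff h, ← map_le_iff_le_comap]
  refine le_pCore (hN.map _ (QuotientGroup.mk'_surjective _)) (isPGroup_subgroup_iff.2 ?_)
  rintro _ ⟨g, hg, rfl⟩
  obtain ⟨n, hn⟩ := hp g hg
  refine ⟨n, ?_⟩
  rw [← map_pow, QuotientGroup.mk'_apply, QuotientGroup.eq_one_iff, mem_subgroupOf]
  simpa using hn

theorem Fp_le_Np (H : Subgroup G) : Fp p H ≤ Np p H :=
  le_Np (Fp_le H) (le_norm_Fp H) fun g hg => ⟨0, by simpa using hg⟩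

theorem Np_inf_le [Finite G] {H K : Subgroup G} (h : K ≤ H) : Np p H ⊓ K ≤ Np p K :=
  le_Np inf_le_right (le_normalizer_inf (h.trans (le_norm_Np H)) le_normalizer) fun _ hg =>
    (pow_mem_Fp hg.1).imp fun _ hn => Fp_inf_le h ⟨hn, K.pow_mem hg.2 _⟩

theorem map_le_norm {H N : Subgroup G} (f : G →* G') (hn : H ≤ normalizer (N : Set G)) :
    H.map f ≤ normalizer ((N.map f : Subgroup G') : Set G') :=
  (map_mono hn).trans (le_normalizer_map f)

theorem map_Np_le [Finite G] (f : G →* G') (H : Subgroup G) :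
    (Np p H).map f ≤ Np p (H.map f) := by
  refine le_Np (map_mono (Np_le H)) (map_le_norm f (le_norm_Np H)) ?_
  rintro _ ⟨g, hg, rfl⟩
  obtain ⟨n, hn⟩ := pow_mem_Fp hg
  exact ⟨n, map_Fp_le f H ⟨_, hn, map_pow f _ _⟩⟩

theorem norm_Np [Finite G] (H : Subgroup G) :
    normalizer (H : Set G) ≤ normalizer (Np p H : Set G) := fun g hg =>
  Transfer.mem_normalizer_of_conj_le
    ((map_Np_le _ H).trans (by rw [Transfer.conj_eq_self_iff.2 hg]))

theorem mem_of_pow_mem [Finite G] {F : Subgroup G} {g : G} {m : ℕ} (h : g ^ m ∈ F)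
    (hc : (orderOf g).Coprime m) : g ∈ F := by
  obtain ⟨k, hk⟩ := exists_pow_eq_self_of_coprime hc.symm
  exact hk ▸ F.pow_mem h k

theorem mem_Fp_of_cop [Finite G] {H : Subgroup G} {g : G} (hg : g ∈ Np p H)
    (hc : (orderOf g).Coprime p) : g ∈ Fp p H := by
  obtain ⟨n, hn⟩ := pow_mem_Fp hg
  exact mem_of_pow_mem hn (hc.pow_right n)

theorem le_Fp_of_cop [Finite G] {H L : Subgroup G} (h : L ≤ Np p H)
    (hc : (Nat.card L).Coprime p) : L ≤ Fp p H := fun _ hg =>
  mem_Fp_of_cop (h hg) (hc.coprime_dvd_left (orderOf_dvd_natCard L hg))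

theorem cop_of_pgroup [Finite G] [Fact p.Prime] [Fact q.Prime] (hq : q ≠ p) {L : Subgroup G}
    (hL : IsPGroup q L) : (Nat.card L).Coprime p :=
  coprime_card_of_isPGroup hL
    ((Nat.coprime_primes (Fact.out : p.Prime) (Fact.out : q.Prime)).2 hq.symm)

theorem le_Oq_of_le_Np [Finite G] [Fact p.Prime] [Fact q.Prime] (hq : q ≠ p) {H L : Subgroup G}
    (h : L ≤ Np p H) (hL : IsPGroup q L) : L ≤ Oq q H :=
  le_Oq_of_le_Fp (le_Fp_of_cop h (cop_of_pgroup hq hL)) hL

theorem conj_Fp [Finite G] (g : G) (H : Subgroup G) : g ⋆ Fp p H = Fp p (g ⋆ H) := by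
  refine le_antisymm (map_Fp_le _ H) ?_
  rw [Transfer.le_conj_iff_inv_conj_le]
  exact (map_Fp_le _ _).trans (by rw [Transfer.inv_conj_conj])

/-- Nilpotent `p'`-subgroups `K = [K, x]`. -/
structure Km (p : ℕ) (x : G) (K : Subgroup G) : Prop where
  nil : Group.IsNilpotent K
  cop : (Nat.card K).Coprime p
  inv : zpowers x ≤ normalizer (K : Set G)
  cm : ⁅K, zpowers x⁆ = K

/-- `A`-invariant `q`-subgroups `K = [K, x]`. -/
structure Kq (q : ℕ) (A : Subgroup G) (x : G) (K : Subgroup G) : Prop where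
  pg : IsPGroup q K
  inv : A ≤ normalizer (K : Set G)
  cm : ⁅K, zpowers x⁆ = K

/-- Maximal members of a family of subgroups. -/
def Mx (P : Subgroup G → Prop) (K : Subgroup G) : Prop := P K ∧ ∀ L, P L → K ≤ L → L = K

theorem exists_mx [Finite G] {P : Subgroup G → Prop} {K : Subgroup G} (h : P K) :
    ∃ R, K ≤ R ∧ Mx P R := by
  obtain ⟨R, h1, h2, h3⟩ := exists_maximal_ge h
  exact ⟨R, h1, h2, h3⟩

/-- A minimal counterexample with trivial solvable radical. -/
structure Ctx (p : ℕ) (D : Set G) : Prop where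
  ord : ∀ x ∈ D, orderOf x = p
  conj : ∀ x ∈ D, ∀ g : G, g * x * g⁻¹ ∈ D
  trans : ∀ x ∈ D, ∀ y ∈ D, ∃ g : G, g * x * g⁻¹ = y
  rad : ∀ N : Subgroup G, N.Normal → Group.IsSolvable N → N = ⊥
  good : ∀ H : Subgroup G, H ≠ ⊤ → ∀ x ∈ D, x ∈ H → x ∈ Np p H
  two : ∀ x ∈ D, ∀ y : G, closure ({x, y} : Set G) ≠ ⊤
  gen : closure D = ⊤

end Cfsg.Lib.FTw
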