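import Cfsg.Agent.Lib.FTw.Line
import Cfsg.Agent.S0034
import Cfsg.Agent.S0042

/-! # `F₂` criterion: the case of trivial solvable radical is impossible

The intersection of the lines through `x` is a Frobenius complement. -/

set_option autoImplicit false

namespace Cfsg.Lib.FTw

open Subgroup Cfsg.Lib.Core
open scoped Cfsg.Lib.Transfer commutatorElement

variable {G : Type*} [Group G] {p : ℕ} {x y z e : G} {D : Set G} {M M' : Subgroup G}

namespace Ctx

variable [Finite G] [Fact p.Prime] (m : Ctx p D)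
include m

theorem fix3 (hx : x ∈ D) (hy : y ∈ D) (hz : z ∈ D) {M₀ : Subgroup G} (h1 : Ln p x M₀)
    (h2 : Ln p y M₀) (hp : ¬ IsPGroup p (closure ({x, y} : Set G)))
    (ex : ∀ M, Ln p x M → e ∈ M) (ey : ∀ M, Ln p y M → e ∈ M) (h3 : ¬ Ln p z M₀)
    (h : Ln p z M) : e ∈ M := by
  obtain ⟨M₁, a1, b1⟩ := m.common hx hz fun hp' => h3 (m.ln_of_pg hx hz hp' h1)
  obtain ⟨M₂, a2, b2⟩ := m.common hy hz fun hp' => h3 (m.ln_of_pg hy hz hp' h2)
  have hne : M₁ ≠ M₂ := by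
    rintro rfl
    exact hp (m.pg_of_two hx hy a1 h1 (fun h => h3 (h ▸ b1)) a2.mem h2.mem)
  have k := fun {M : Subgroup G} (h : z ∈ M) (h' : e ∈ M) => mul_mem (mul_mem h' h) (inv_mem h')
  exact m.mem_of_pg hz (m.pg_of_two hz (m.conj z hz e) b1 b2 hne (k b1.mem (ex _ a1))
    (k b2.mem (ey _ a2))) h

theorem fix_all (hx : x ∈ D) (hy : y ∈ D) (hp : ¬ IsPGroup p (closure ({x, y} : Set G)))
    (ex : ∀ M, Ln p x M → e ∈ M) (ey : ∀ M, Ln p y M → e ∈ M) (hz : z ∈ D) (h : Ln p z M) :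
    e ∈ M := by
  obtain ⟨M₀, h1, h2⟩ := m.common hx hy hp
  by_cases hM : M = M₀
  · exact hM ▸ ex _ h1
  by_cases h3 : Ln p z M₀
  · obtain ⟨a, ha, haz⟩ := exists_not_commute (m.mx_ne hz h.mx)
    have k := h.conj' (Fp_le M ha)
    refine m.fix3 hx hy (m.conj z hz a) h1 h2 hp ex ey (fun k' => haz ?_) k
    exact commute_of_pg (m.pg_of_two hz (m.conj z hz a) h h3 hM k.mem k'.mem) h.mem ha
      (l_mem _ _) (r_mem _ _)
  · exact m.fix3 hx hy hz h1 h2 hp ex ey h3 h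

theorem has_ln (hx : x ∈ D) : ∃ M, Ln p x M :=
  (m.exists_km hx).elim fun _ h => (m.exists_ln hx h.1).imp fun _ h => h.1

theorem core_bot {N : Subgroup G} [N.Normal] (hN : ∀ z ∈ D, ∀ M, Ln p z M → N ≤ M) : N = ⊥ := by
  have h0 : fittingOf N = ⊥ := m.rad _ inferInstance (isSolvable_of_isNilpotent inferInstance)
  have h1 : ∀ L : Subgroup G, N ≤ normalizer (L : Set G) → Group.IsNilpotent ↥(L ⊓ N) →
      L ⊓ N = ⊥ := fun L h h' =>
    le_bot_iff.1 (h0 ▸ le_fittingOf inf_le_right (le_normalizer_inf h le_normalizer) h')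
  have hc : closure D ≤ centralizer (N : Set G) := (closure_le _).2 fun z hz => by
    obtain ⟨M, h⟩ := m.has_ln hz
    have hle := hN z hz M h
    have a := h1 (Fp p M) (hle.trans (le_norm_Fp M)) (isNilpotent_of_le inf_le_left (Fp_nil M))
    have b := h1 (Np p M) (hle.trans (le_norm_Np M)) (IsPGroup.isNilpotent (p := p)
      (isPGroup_subgroup_iff.2 fun g hg => (pow_mem_Fp hg.1).imp fun n hn =>
        mem_bot.1 (a ▸ (⟨hn, N.pow_mem hg.2 _⟩ : g ^ p ^ n ∈ Fp p M ⊓ N))))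
    have c : ⁅N, zpowers z⁆ = ⊥ := le_bot_iff.1 (b ▸ le_inf
      (cm_le_of_mem (m.good M h.co.1 z hz h.mem) (hle.trans (le_norm_Np M)))
      (commutator_le_left _ _))
    exact mem_centralizer_iff.2 fun n hn =>
      (comm_of_cent (commutator_eq_bot_iff_le_centralizer.1 c hn)).eq
  rw [m.gen] at hc
  exact m.rad N inferInstance (Group.isSolvable_of_comm fun a b =>
    Subtype.ext (mem_centralizer_iff.1 (hc (mem_top b.1)) a a.2))

theorem false (hx : x ∈ D) : False := by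
  set Y := sInf {M | Ln p x M}
  set N := sInf {M | ∃ z ∈ D, Ln p z M}
  haveI : N.Normal := ⟨fun n hn g => mem_sInf.2 fun M ⟨z, hz, h⟩ => by
    have := mem_sInf.1 hn _ ⟨_, m.conj z hz g⁻¹, h.conj g⁻¹⟩
    rwa [Transfer.mem_conj, inv_inv] at this⟩
  have hN : N = ⊥ := m.core_bot fun z hz M h => sInf_le ⟨z, hz, h⟩
  obtain ⟨M, hM⟩ := m.has_ln hx
  have ht : Y ≠ ⊤ := fun h => hM.co.1 (top_le_iff.1 (h ▸ sInf_le hM))
  have hY : IsFrobeniusComplement Y := by
    refine ⟨fun h => m.ne_one hx (mem_bot.1 (h ▸ mem_sInf.2 fun _ h => h.mem)), ht,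
      fun g hg => le_bot_iff.1 (hN ▸ fun e he => mem_sInf.2 fun M ⟨z, hz, h⟩ => ?_)⟩
    rw [conj_smul_eq_map] at he
    refine m.fix_all hx (m.conj x hx g) (fun hp => hg (mem_sInf.2 fun _ h => m.mem_of_pg hx hp h))
      (mem_sInf.1 he.1) (fun M' h' => ?_) hz h
    have := h'.conj g⁻¹
    rw [show g⁻¹ * (g * x * g⁻¹) * g⁻¹⁻¹ = x by group] at this
    have := mem_sInf.1 (Transfer.mem_conj.1 he.2) _ this
    rwa [Transfer.mem_conj, show g⁻¹⁻¹ * (g⁻¹ * e * g) * g⁻¹ = e by group] at this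
  obtain ⟨K, h1, h2, h3⟩ := Cfsg.Agent.S0042.result Y hY
  have h4 := (Cfsg.Agent.S0034.result Y hY).1
  rw [← h1, m.rad K h2 (isSolvable_of_isNilpotent h3)] at h4
  exact ht (index_eq_one.1 (h4.symm.trans card_bot))

end Ctx

end Cfsg.Lib.FTw
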