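import Cfsg.Agent.Lib.FTw.Bas

/-! # `F₂` criterion: a four-group acting on a `q`-group of odd order -/

set_option autoImplicit false

namespace Cfsg.Lib.FTw

open Subgroup Cfsg.Lib.Core
open scoped Cfsg.Lib.Transfer commutatorElement

universe u

variable {G : Type*} [Group G] {q : ℕ} {x t : G}

/-- two commuting elements of order dividing `2`. -/
structure Fr (x t : G) : Prop where
  xx : x * x = 1
  tt : t * t = 1
  cm : Commute x t

namespace Fr

variable (h : Fr x t)
include h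

theorem mem {g : G} (hg : g ∈ closure ({x, t} : Set G)) : g = 1 ∨ g = x ∨ g = t ∨ g = x * t := by
  have e1 := h.xx
  have e2 := h.tt
  have e3 : t * x = x * t := h.cm.eq.symm
  have e4 : x * (x * t) = t := by rw [← mul_assoc, e1, one_mul]
  have e5 : t * (x * t) = x := by rw [← e3, ← mul_assoc, e2, one_mul]
  have e6 : x * t * x = t := by rw [mul_assoc, e3, e4]
  have e7 : x * t * t = x := by rw [mul_assoc, e2, mul_one]
  have e8 : x * t * (x * t) = 1 := by rw [← mul_assoc, e6, e2]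
  induction hg using closure_induction with
  | mem g hg => rcases hg with rfl | rfl <;> simp
  | one => simp
  | mul a b _ _ ha hb =>
    rcases ha with rfl | rfl | rfl | rfl <;> rcases hb with hb | hb | hb | hb <;> rw [hb] <;>
      simp [e1, e2, e3, e4, e5, e6, e7, e8]
  | inv a _ ha =>
    rcases ha with ha | ha | ha | ha <;> rw [ha]
    · simp
    · rw [inv_eq_of_mul_eq_one_right e1]; simp
    · rw [inv_eq_of_mul_eq_one_right e2]; simp
    · rw [inv_eq_of_mul_eq_one_right e8]; simp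

theorem sq {g : G} (hg : g ∈ closure ({x, t} : Set G)) : g * g = 1 := by
  rcases h.mem hg with rfl | rfl | rfl | rfl
  · simp
  · exact h.xx
  · exact h.tt
  · rw [h.cm.symm.mul_mul_mul_comm, h.xx, h.tt, one_mul]

theorem pg : IsPGroup 2 (closure ({x, t} : Set G)) :=
  isPGroup_subgroup_iff.2 fun g hg => ⟨1, by rw [pow_one, pow_two, h.sq hg]⟩

omit h in
theorem le_cent {c : G} (h1 : Commute c x) (h2 : Commute c t) :
    closure ({x, t} : Set G) ≤ centralizer (zpowers c : Set G) :=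
  (closure_le _).2 (by
    rintro z (rfl | rfl)
    · exact zp_le_cent h1.symm
    · exact zp_le_cent h2.symm)

theorem comm : IsMulCommutative (closure ({x, t} : Set G)) := ⟨⟨fun a b => Subtype.ext (by
  exact comm_of_cent (le_cent (c := (b : G)) (comm_of_cent (le_cent (Commute.refl x) h.cm b.2))
    (comm_of_cent (le_cent h.cm.symm (Commute.refl t) b.2)) a.2))⟩⟩

theorem map {G' : Type*} [Group G'] (f : G →* G') : Fr (f x) (f t) :=
  ⟨by rw [← map_mul, h.xx, map_one], by rw [← map_mul, h.tt, map_one], h.cm.map f⟩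

/-- generation by the three centralizers. -/
theorem gen [Finite G] {K H : Subgroup G} (hK : (Nat.card K).Coprime 2)
    (hn : closure ({x, t} : Set G) ≤ normalizer (K : Set G))
    (h1 : ∀ c ∈ K, Commute c x → c ∈ H) (h2 : ∀ c ∈ K, Commute c t → c ∈ H)
    (h3 : ∀ c ∈ K, Commute c (x * t) → c ∈ H) : K ≤ H := by
  refine Coprime.le_of_forall_cocyclic h.comm hn (coprime_card_of_isPGroup h.pg hK) ?_
  rintro B hB ⟨a, ha, hBa⟩ c ⟨hc, hcB⟩
  by_cases h0 : B = ⊥
  · subst h0
    rw [bot_sup_eq] at hBa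
    have key : ∀ g ∈ closure ({x, t} : Set G), g = 1 ∨ g = a := fun g hg => by
      rw [← hBa] at hg
      obtain ⟨i, rfl⟩ := hg
      have h2 : a ^ (2 : ℤ) = 1 := by rw [zpow_two, h.sq ha]
      rcases Int.even_or_odd' i with ⟨k, rfl | rfl⟩
      · left; simp [zpow_mul, h2]
      · right; simp [zpow_add, zpow_mul, h2]
    rcases key x (subset_closure (by simp)) with e | e
    · exact h1 c hc (e ▸ Commute.one_right c)
    rcases key t (subset_closure (by simp)) with e' | e'
    · exact h2 c hc (e' ▸ Commute.one_right c)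
    · exact h3 c hc (by rw [e, e', h.sq ha]; exact Commute.one_right c)
  · obtain ⟨⟨b, hb⟩, hb1⟩ := (ne_bot_iff_exists_ne_one).1 h0
    have hcb : Commute c b := (mem_centralizer_iff.1 hcB b hb).symm
    rcases h.mem (hB hb) with rfl | rfl | rfl | rfl
    · exact absurd rfl hb1
    · exact h1 c hc hcb
    · exact h2 c hc hcb
    · exact h3 c hc hcb

end Fr

theorem eq_one_of_sq [Finite G] {K : Subgroup G} (hK : (Nat.card K).Coprime 2) {a : G}
    (ha : a ∈ K) (h : a * a = 1) : a = 1 :=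
  mem_bot.1 (mem_of_pow_mem (m := 2) (by rw [pow_two, h]; exact one_mem _)
    (hK.coprime_dvd_left (orderOf_dvd_natCard K ha)))

theorem cm_mem {K : Subgroup G} {k : G} (hk : k ∈ K) : ⁅k, x⁆ ∈ ⁅K, zpowers x⁆ :=
  commutator_mem_commutator hk (mem_zpowers x)

theorem cel_mul {n a b : G} (h : Commute ⁅n, b⁆ a) : ⁅n, a * b⁆ = ⁅n, a⁆ * ⁅n, b⁆ := by
  have : ⁅n, a * b⁆ = ⁅n, a⁆ * (a * ⁅n, b⁆ * a⁻¹) := by simp only [commutatorElement_def]; group
  rw [this, ← h.eq, mul_inv_cancel_right]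

theorem cel_inv {n a : G} (h : Commute ⁅n, a⁆ a) : ⁅n, a⁻¹⁆ = ⁅n, a⁆⁻¹ := by
  have : ⁅n, a⁻¹⁆ = a⁻¹ * ⁅n, a⁆⁻¹ * a := by simp only [commutatorElement_def]; group
  rw [this, mul_assoc, h.inv_left.eq, inv_mul_cancel_left]

theorem cel_inv' {n a : G} (h : Commute ⁅n, a⁆ n) : ⁅n⁻¹, a⁆ = ⁅n, a⁆⁻¹ := by
  have : ⁅n⁻¹, a⁆ = n⁻¹ * ⁅n, a⁆⁻¹ * n := by simp only [commutatorElement_def]; group
  rw [this, mul_assoc, h.inv_left.eq, inv_mul_cancel_left]

theorem cel_conj {n a s : G} (h : Commute ⁅n, a⁆ s) :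
    ⁅s * n * s⁻¹, s * a * s⁻¹⁆ = ⁅n, a⁆ := by
  have : ⁅s * n * s⁻¹, s * a * s⁻¹⁆ = s * ⁅n, a⁆ * s⁻¹ := by
    simp only [commutatorElement_def]; group
  rw [this, ← h.eq, mul_inv_cancel_right]

/-- The second centre of `K` collapses. -/
theorem second_center [Finite G] {K : Subgroup G} (hK : (Nat.card K).Coprime 2) (h : Fr x t)
    (hn : closure ({x, t} : Set G) ≤ normalizer (K : Set G)) (hcm : ⁅K, zpowers x⁆ = K)
    (hZ : ∀ z ∈ K ⊓ centralizer (K : Set G), Commute z x ∧ Commute z t)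
    (hU : ∀ s, s = t ∨ s = x * t → ∀ z ∈ ⁅K ⊓ centralizer (zpowers s : Set G), zpowers x⁆,
      z ∈ centralizer (K : Set G) → z = 1)
    {B : Subgroup G} (hBK : B ≤ K) (hB : closure ({x, t} : Set G) ≤ normalizer (B : Set G))
    (hc : ⁅B, K⁆ ≤ centralizer (K : Set G)) : B ≤ centralizer (K : Set G) := by
  have hxi : x⁻¹ = x := inv_eq_of_mul_eq_one_right h.xx
  have hxA : x ∈ closure ({x, t} : Set G) := subset_closure (by simp)
  have htA : t ∈ closure ({x, t} : Set G) := subset_closure (by simp)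
  have hz : ∀ {n k : G}, n ∈ B → k ∈ K → ⁅n, k⁆ ∈ K ⊓ centralizer (K : Set G) :=
    fun {n k} hn hk => ⟨by
      rw [commutatorElement_def]
      exact K.mul_mem (K.mul_mem (K.mul_mem (hBK hn) hk) (K.inv_mem (hBK hn))) (K.inv_mem hk),
      hc (commutator_mem_commutator hn hk)⟩
  have hzc : ∀ {n k a : G}, n ∈ B → k ∈ K → a ∈ K → Commute ⁅n, k⁆ a :=
    fun hn hk ha => (mem_centralizer_iff.1 (hz hn hk).2 _ ha).symm
  have hcj : ∀ {s k : G}, s ∈ closure ({x, t} : Set G) → k ∈ K → s * k * s⁻¹ ∈ K :=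
    fun hs hk => (mem_normalizer_iff.1 (hn hs) _).1 hk
  have hzs : ∀ {n k s : G}, n ∈ B → k ∈ K → s ∈ closure ({x, t} : Set G) → Commute ⁅n, k⁆ s :=
    fun hn hk hs => (comm_of_cent (Fr.le_cent (hZ _ (hz hn hk)).1 (hZ _ (hz hn hk)).2 hs)).symm
  -- if `s` fixes `n`, then `n` centralizes `[k, s]`
  have fix : ∀ {n k s : G}, n ∈ B → k ∈ K → s ∈ closure ({x, t} : Set G) → Commute n s →
      ⁅n, s * k * s⁻¹⁆ = ⁅n, k⁆ := fun {n k s} hn hk hs hns => by
    have := cel_conj (hzs hn hk hs)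
    rwa [← hns.eq, mul_inv_cancel_right] at this
  have c1 : ∀ n ∈ B, Commute n x → n ∈ centralizer (K : Set G) := fun n hnB hnx => by
    have : K ≤ centralizer (zpowers n : Set G) := by
      rw [← hcm, commutator_le]
      intro k hk y hy
      have hyA : y ∈ closure ({x, t} : Set G) := zpowers_le_of_mem hxA hy
      have hny : Commute n y := (mem_centralizer_iff.1 (zp_le_cent hnx) y hy).symm
      refine zp_le_cent (commutatorElement_eq_one_iff_commute.1 ?_).symm
      rw [show ⁅k, y⁆ = k * (y * k⁻¹ * y⁻¹) by rw [commutatorElement_def]; group,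
        cel_mul (hzc hnB (hcj hyA (inv_mem hk)) hk), fix hnB (inv_mem hk) hyA hny,
        cel_inv (hzc hnB hk hk), mul_inv_cancel]
    exact fun k hk => comm_of_cent (this hk)
  have c2 : ∀ s, s = t ∨ s = x * t → ∀ n ∈ B, Commute n s → n ∈ centralizer (K : Set G) := by
    intro s hs n hnB hns
    have hsA : s ∈ closure ({x, t} : Set G) := by
      rcases hs with rfl | rfl
      exacts [htA, mul_mem hxA htA]
    have hxs : Commute x s := by
      rcases hs with rfl | rfl
      exacts [h.cm, (Commute.refl x).mul_right h.cm]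
    have hm : ⁅n, x⁆ ∈ B := by
      rw [show ⁅n, x⁆ = n * (x * n⁻¹ * x⁻¹) by rw [commutatorElement_def]; group]
      exact mul_mem hnB ((mem_normalizer_iff.1 (hB hxA) _).1 (inv_mem hnB))
    have hms : Commute ⁅n, x⁆ s := by
      rw [commutatorElement_def]
      exact ((hns.mul_left hxs).mul_left hns.inv_left).mul_left hxs.inv_left
    have hmx : x * ⁅n, x⁆ * x⁻¹ = ⁅n, x⁆⁻¹ := by
      rw [commutatorElement_def, hxi, mul_assoc, mul_assoc _ x x, h.xx, mul_inv_rev, mul_inv_rev,
        mul_inv_rev, hxi]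
      group
    have hmK : ⁅n, x⁆ ∈ centralizer (K : Set G) := by
      have hs2 : IsPGroup 2 (zpowers s) := h.pg.to_le (zpowers_le_of_mem hsA)
      have : K ≤ centralizer (zpowers ⁅n, x⁆ : Set G) := by
        rw [← Coprime.commutator_sup_centralizer ((zpowers_le_of_mem hsA).trans hn)
          (coprime_card_of_isPGroup hs2 hK) (solv_zp s K)]
        refine sup_le (commutator_le.2 fun k hk y hy => ?_) fun k hk => ?_
        · have hyA : y ∈ closure ({x, t} : Set G) := zpowers_le_of_mem hsA hy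
          have hny : Commute ⁅n, x⁆ y := (mem_centralizer_iff.1 (zp_le_cent hms) y hy).symm
          refine zp_le_cent (commutatorElement_eq_one_iff_commute.1 ?_).symm
          rw [show ⁅k, y⁆ = k * (y * k⁻¹ * y⁻¹) by rw [commutatorElement_def]; group,
            cel_mul (hzc hm (hcj hyA (inv_mem hk)) hk), fix hm (inv_mem hk) hyA hny,
            cel_inv (hzc hm hk hk), mul_inv_cancel]
        · refine zp_le_cent (commutatorElement_eq_one_iff_commute.1 ?_).symm
          have hkx : ⁅k, x⁆ ∈ K := cm_le (zpowers_le_of_mem (hn hxA)) (cm_mem hk.1)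
          have e1 : ⁅⁅n, x⁆, ⁅k, x⁆⁆ = 1 := hU s hs _ (by
            rw [commutatorElement_def ⁅n, x⁆]
            have a1 := cm_mem (x := x) (K := K ⊓ centralizer (zpowers s : Set G))
              ⟨hBK hnB, zp_le_cent hns⟩
            have a2 := cm_mem (x := x) hk
            exact mul_mem (mul_mem (mul_mem a1 a2) (inv_mem a1)) (inv_mem a2)) (hz hm hkx).2
          have e2 := cel_conj (hzs (inv_mem hm) (inv_mem hk.1) hxA)
          rw [← conj_inv, hmx, inv_inv,
            cel_inv' (hzc hm (inv_mem hk.1) (hBK hm)), cel_inv (hzc hm hk.1 hk.1), inv_inv] at e2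
          rw [show ⁅k, x⁆ = k * (x * k⁻¹ * x⁻¹) by rw [commutatorElement_def]; group,
            cel_mul (hzc hm (hcj hxA (inv_mem hk.1)) hk.1), e2] at e1
          exact eq_one_of_sq hK (hz hm hk.1).1 e1
      exact fun k hk => comm_of_cent (this hk)
    have hfix := (hZ _ ⟨hBK hm, hmK⟩).1
    rw [← hfix.eq, mul_inv_cancel_right] at hmx
    exact c1 n hnB (commutatorElement_eq_one_iff_commute.1
      (eq_one_of_sq hK (hBK hm) (mul_eq_one_iff_eq_inv.2 hmx)))
  exact h.gen (coprime_of_le hBK hK) hB c1 (c2 t (Or.inl rfl)) (c2 _ (Or.inr rfl))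

end Cfsg.Lib.FTw
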