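import Cfsg.Agent.Lib.FTw.Uni

/-! # `F₂` criterion: the maximal subgroups over maximal members ("lines") -/

set_option autoImplicit false

namespace Cfsg.Lib.FTw

open Subgroup Cfsg.Lib.Core
open scoped Cfsg.Lib.Transfer commutatorElement

variable {G : Type*} [Group G] {p : ℕ} {x y : G} {D : Set G} {M M' H : Subgroup G}

/-- `M` is a line through `x`. -/
structure Ln (p : ℕ) (x : G) (M : Subgroup G) : Prop where
  co : IsCoatom M
  mem : x ∈ M
  mx : Mx (Km p x) ⁅Fp p M, zpowers x⁆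

theorem coatom_eq (h : IsCoatom M) (h' : M' ≠ ⊤) (hle : M ≤ M') : M = M' :=
  (hle.eq_or_lt.resolve_right fun hlt => h' (h.2 _ hlt))

theorem l_mem (x y : G) : x ∈ closure ({x, y} : Set G) := subset_closure (by simp)

theorem r_mem (x y : G) : y ∈ closure ({x, y} : Set G) := subset_closure (by simp)

theorem pair_le (hx : x ∈ H) (hy : y ∈ H) : closure ({x, y} : Set G) ≤ H :=
  (closure_le _).2 (by rintro z (rfl | rfl) <;> assumption)

variable [Finite G]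

theorem Ln.conj (h : Ln p x M) (g : G) : Ln p (g * x * g⁻¹) (g ⋆ M) :=
  ⟨isCoatom_map_of_ker_le (MulAut.conj g).surjective (by
      rw [(MonoidHom.ker_eq_bot_iff _).2 (MulAut.conj g).injective]; exact bot_le) h.co,
    Transfer.conj_mem_conj.2 h.mem, by
      rw [← conj_Fp, ← conj_cm]
      exact mx_conj (P := fun x => Km p x) (fun _ _ h g => h.conj g) h.mx g⟩

theorem Ln.conj' (h : Ln p x M) {g : G} (hg : g ∈ M) : Ln p (g * x * g⁻¹) M := by
  have := h.conj g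
  rwa [Transfer.conj_eq_self_of_mem hg] at this

omit [Finite G] in
theorem Ln.cm_le (h : Ln p x M) : ⁅Fp p M, zpowers x⁆ ≤ Fp p M :=
  FTw.cm_le (zp_le_norm (le_norm_Fp M h.mem))

namespace Ctx

variable [Fact p.Prime] (m : Ctx p D)
include m

theorem mx_ne (hx : x ∈ D) {K : Subgroup G} (hK : Mx (Km p x) K) : K ≠ ⊥ := fun h => by
  obtain ⟨L, hL, h0⟩ := m.exists_km hx
  exact h0 ((hK.2 L hL (h ▸ bot_le)).trans h)

theorem zip (hx : x ∈ D) {K : Subgroup G} (hK : Mx (Km p x) K) :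
    ∃ M, IsCoatom M ∧ ∀ H, H ≠ ⊤ → x ∈ H → K ≤ H → H ≤ M := by
  have hns : ¬ SubnormalIn (zpowers x ⊔ K) ⊤ := fun h => by
    have := le_solvableRadical_of_isSubnormal (subnormalIn_top.1 h)
      (isSolvable_sup hK.1.inv (isSolvable_of_isMulCommutative _)
        (isSolvable_of_isNilpotent hK.1.nil))
    rw [m.rad _ inferInstance (solvableRadical_isSolvable G)] at this
    exact m.ne_one hx (mem_bot.1 (this (mem_sup_left (mem_zpowers x))))
  suffices hsub : ∀ H, zpowers x ⊔ K ≤ H → H < ⊤ → SubnormalIn (zpowers x ⊔ K) H by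
    obtain ⟨M, hM, hle⟩ := zipper (A := zpowers x ⊔ K) le_top hsub hns
    have hAM := hle _ le_rfl (lt_top_iff_ne_top.2 fun h => hns (h ▸ SubnormalIn.refl _))
    refine ⟨M, ⟨hM.ne, fun L hL => ?_⟩, fun H h1 h2 h3 =>
      hle H (sup_le (zpowers_le_of_mem h2) h3) (lt_top_iff_ne_top.2 h1)⟩
    by_contra h
    exact hL.not_ge (hle L (hAM.trans hL.le) (lt_top_iff_ne_top.2 h))
  intro H hAH hH
  have hxH : x ∈ H := hAH (mem_sup_left (mem_zpowers x))
  have hxN := zpowers_le_of_mem (m.good H hH.ne x hx hxH)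
  rw [← hK.2 _ (m.km_KH hx hxH) (m.km_le hx hH.ne hxH (le_sup_right.trans hAH) hK.1)]
  have h1 : zpowers x ⊔ Fp p H ≤ Np p H := sup_le hxN (Fp_le_Np H)
  refine SubnormalIn.head (B := zpowers x ⊔ Fp p H)
    (sup_le_sup_left (FTw.cm_le (zp_le_norm (le_norm_Fp H hxH))) _)
    (sup_le (le_normalizer_of_le le_sup_left) (le_normalizer_sup_commutator _ _))
    (SubnormalIn.tail ((isSubnormal_subgroupOf_iff h1).1 ?_) (Np_le H) (le_norm_Np H))
  haveI : ((Fp p H).subgroupOf (Np p H)).Normal :=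
    (normal_subgroupOf_iff_le_normalizer (Fp_le_Np H)).2 ((Np_le H).trans (le_norm_Fp H))
  refine isSubnormal_of_quotient_isNilpotent (N := (Fp p H).subgroupOf (Np p H))
    (IsPGroup.isNilpotent (p := p) fun g => ?_) (comap_mono le_sup_right)
  obtain ⟨g, rfl⟩ := QuotientGroup.mk_surjective g
  obtain ⟨n, hn⟩ := pow_mem_Fp g.2
  exact ⟨n, by rw [← QuotientGroup.mk_pow, QuotientGroup.eq_one_iff]; exact hn⟩

theorem ln_uniq (hx : x ∈ D) (h : Ln p x M) (hH : H ≠ ⊤) (hxH : x ∈ H)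
    (hle : ⁅Fp p M, zpowers x⁆ ≤ H) : H ≤ M := by
  obtain ⟨M', h1, h2⟩ := m.zip hx h.mx
  rw [coatom_eq h.co h1.1 (h2 M h.co.1 h.mem (h.cm_le.trans (Fp_le M)))]
  exact h2 H hH hxH hle

theorem exists_ln (hx : x ∈ D) {J : Subgroup G} (hJ : Km p x J) : ∃ M, Ln p x M ∧ J ≤ M := by
  obtain ⟨K, hJK, hK⟩ := exists_mx hJ
  have hn := m.norm_ne' (m.mx_ne hx hK) hK.1.nil
  obtain ⟨M, h1, h2⟩ := exists_coatom_ge hn
  have hxM := h2 (hK.1.inv (mem_zpowers x))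
  have hKM := le_normalizer.trans h2
  exact ⟨M, ⟨h1, hxM, by
    rwa [hK.2 _ (m.km_KH hx hxM) (m.km_le hx h1.1 hxM hKM hK.1)]⟩, hJK.trans hKM⟩

omit [Finite G] [Fact p.Prime] in
theorem mem_of_conj_eq (hx : x ∈ D) (h : Ln p x M) {g : G} (hg : g ⋆ M = M) : g ∈ M := by
  have hn : normalizer (M : Set G) ≠ ⊤ := fun ht => by
    haveI := normal_of_top_le_normalizer ht.ge
    refine h.co.1 (top_le_iff.1 (m.gen ▸ (closure_le _).2 fun y hy => ?_))
    obtain ⟨g, rfl⟩ := m.trans x hx y hy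
    exact Normal.conj_mem inferInstance x h.mem g
  rw [coatom_eq h.co hn le_normalizer]
  exact Transfer.conj_eq_self_iff.1 hg

theorem cent_le (hx : x ∈ D) (h : Ln p x M) {c : G} (hc : Commute c x) : c ∈ M := by
  have h' := h.conj c
  have hK := Transfer.conj_eq_self_iff.2 (m.cn hx h.mx (m.mx_ne hx h.mx) hc)
  rw [conj_cm, conj_Fp] at hK
  rw [hc.eq, mul_inv_cancel_right] at h' hK
  exact m.mem_of_conj_eq hx h (coatom_eq h.co h'.co.1
    (m.ln_uniq hx h' h.co.1 h.mem (hK ▸ h.cm_le.trans (Fp_le M)))).symm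

theorem ln_eq (hx : x ∈ D) {J : Subgroup G} (hJ : Km p x J) (h0 : J ≠ ⊥) (h : Ln p x M)
    (h' : Ln p x M') (h1 : J ≤ M) (h2 : J ≤ M') : M = M' := by
  have := m.um hx hJ h0 h.mx h'.mx (m.km_le hx h.co.1 h.mem h1 hJ)
    (m.km_le hx h'.co.1 h'.mem h2 hJ)
  exact coatom_eq h.co h'.co.1 (m.ln_uniq hx h' h.co.1 h.mem (this ▸ h.cm_le.trans (Fp_le M)))

theorem Fp_le_ln (hx : x ∈ D) (hxH : x ∈ H) (h : Ln p x M) (hle : ⁅Fp p H, zpowers x⁆ ≤ M) :
    Fp p H ≤ M :=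
  le_of_cm_le (m.ord x hx) (Fp_cop H) (zp_le_norm (le_norm_Fp H hxH)) hle
    fun _ _ hc => m.cent_le hx h hc

theorem ln_of_mem (hx : x ∈ D) (hy : y ∈ D) (h : Ln p x M) (hyM : y ∈ M)
    (hxY : ∀ M', Ln p y M' → x ∈ M') : Ln p y M := by
  obtain ⟨M', h', hle⟩ := m.exists_ln hy (m.km_KH hy hyM)
  rwa [← coatom_eq h'.co h.co.1 (m.ln_uniq hx h h'.co.1 (hxY _ h')
    (h.cm_le.trans (m.Fp_le_ln hy hyM h' hle)))]

theorem pg_pair (hx : x ∈ D) (hy : y ∈ D)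
    (h : ⁅Fp p (closure ({x, y} : Set G)), zpowers x⁆ = ⊥) : IsPGroup p (closure ({x, y} : Set G)) :=
  (isPGroup_sup_pCoreOf (le_normalizer_of_le (zpowers_le_of_mem (r_mem x y)))
    (pg_zp (m.ord y hy))).to_le (pair_le
      (mem_sup_right (m.pg_of_cm hx (m.two x hx y) (l_mem x y) h)) (mem_sup_left (mem_zpowers y)))

theorem pg_of_two (hx : x ∈ D) (hy : y ∈ D) (h : Ln p x M) (h' : Ln p x M') (hne : M ≠ M')
    (h1 : y ∈ M) (h2 : y ∈ M') : IsPGroup p (closure ({x, y} : Set G)) := by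
  refine m.pg_pair hx hy (by_contra fun h0 => hne ?_)
  have hle := (FTw.cm_le (zp_le_norm (le_norm_Fp (p := p) _ (l_mem x y)))).trans (Fp_le _)
  exact m.ln_eq hx (m.km_KH hx (l_mem x y)) h0 h h' (hle.trans (pair_le h.mem h1))
    (hle.trans (pair_le h'.mem h2))

theorem fixc (hx : x ∈ D) (hy : y ∈ D) (h : Ln p x M) (h' : Ln p x M') (hne : M ≠ M')
    (k' : Ln p y M') {c : G} (hc : c ∈ Fp p M) (hcy : Commute c y) : Commute c x := by
  have hn : zpowers x ≤ normalizer ((Fp p M ⊓ M' : Subgroup G) : Set G) := le_normalizer_inf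
    (zp_le_norm (le_norm_Fp M h.mem)) (le_normalizer_of_le (zpowers_le_of_mem h'.mem))
  have : ⁅Fp p M ⊓ M', zpowers x⁆ = ⊥ := by_contra fun h0 => hne (m.ln_eq hx
    (km_cm (m.ord x hx) (isNilpotent_of_le inf_le_left (Fp_nil M))
      (coprime_of_le inf_le_left (Fp_cop M)) hn) h0 h h'
    ((FTw.cm_le hn).trans (inf_le_left.trans (Fp_le M))) ((FTw.cm_le hn).trans inf_le_right))
  exact comm_of_cent (commutator_eq_bot_iff_le_centralizer.1 this ⟨hc, m.cent_le hy k' hcy⟩)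

omit m [Fact p.Prime] in
theorem commute_of_pg {T : Subgroup G} (hT : IsPGroup p T) (hxM : x ∈ M) {f : G}
    (hf : f ∈ Fp p M) (h1 : x ∈ T) (h2 : f * x * f⁻¹ ∈ T) : Commute f x := by
  have := eq_of_pg hT (Fp_cop (p := p) M) h1 h2 (by
    rw [show x⁻¹ * (f * x * f⁻¹) = x⁻¹ * f * x⁻¹⁻¹ * f⁻¹ by group]
    exact mul_mem ((mem_normalizer_iff.1 (le_norm_Fp M (inv_mem hxM)) f).1 hf) (inv_mem hf))
  exact mul_inv_eq_iff_eq_mul.1 this.symm

theorem mem_of_same (hx : x ∈ D) {g : G} (hp : IsPGroup p (closure ({x, g * x * g⁻¹} : Set G)))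
    (hs : ∀ M, Ln p x M ↔ Ln p (g * x * g⁻¹) M) (h : Ln p x M) : g ∈ M := by
  by_cases hu : ∀ M', Ln p x M' → M' = M
  · exact m.mem_of_conj_eq hx h (hu _ ((hs _).2 (h.conj g)))
  push Not at hu
  obtain ⟨M', h', hne⟩ := hu
  have hy := m.conj x hx g
  have k := (hs _).1 h
  have k' := (hs _).1 h'
  obtain ⟨a, ha, hax⟩ := exists_not_commute (m.mx_ne hx h.mx)
  have haM := Fp_le M ha
  have hw := m.conj _ hy a
  have kw := k.conj' haM
  have e : a * (g * x * g⁻¹) * a⁻¹ = a * g * x * (a * g)⁻¹ := by group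
  have gd := fun {z} (hz : z ∈ D) (hzM : z ∈ M) => m.good M h.co.1 z hz hzM
  have hnp : ¬ IsPGroup p (closure ({x, a * (g * x * g⁻¹) * a⁻¹} : Set G)) := fun hp' => by
    obtain ⟨f, hf, T, hT, h1, h2⟩ := exists_conj_pg (X := Np p M) (fun _ hg => pow_mem_Fp hg) hp
      (pair_le (gd hx h.mem) (gd hy k.mem)) hp' (pair_le (gd hx h.mem) (gd hw kw.mem))
    have c1 := commute_of_pg hT h.mem hf.1 (h1 (l_mem _ _))
      (h2 (Transfer.conj_mem_conj.2 (l_mem _ _)))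
    have c2 := commute_of_pg hT k.mem (mul_mem hf.1 ha) (h1 (r_mem _ _)) (by
      have := h2 (Transfer.conj_mem_conj.2 (r_mem _ _))
      rwa [show f * (a * (g * x * g⁻¹) * a⁻¹) * f⁻¹ = f * a * (g * x * g⁻¹) * (f * a)⁻¹ by
        group] at this)
    have c3 := c1.inv_left.mul_left (m.fixc hx hy h h' hne.symm k' (mul_mem hf.1 ha) c2)
    rw [inv_mul_cancel_left] at c3
    exact hax c3
  rw [e] at hnp hw kw
  set z := a * g
  have hH := m.two x hx z
  have x1 := l_mem x z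
  have z1 := r_mem x z
  have w1 : z * x * z⁻¹ ∈ closure ({x, z} : Set G) := mul_mem (mul_mem z1 x1) (inv_mem z1)
  have hL : ∀ {u}, u ∈ closure ({x, z * x * z⁻¹} : Set G) →
      ⁅Fp p (closure ({x, z * x * z⁻¹} : Set G)), zpowers u⁆ ≤ closure {x, z * x * z⁻¹} :=
    fun hu => (FTw.cm_le (zp_le_norm (le_norm_Fp _ hu))).trans (Fp_le _)
  have J0 := m.km_KH hx (l_mem x (z * x * z⁻¹))
  have J1 := m.km_KH hw (r_mem x (z * x * z⁻¹))
  obtain ⟨M₁, k₁, hle⟩ := m.exists_ln hx (m.km_KH hx x1)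
  obtain rfl := m.ln_eq hx J0 (fun h0 => hnp (m.pg_pair hx hw h0)) h k₁
    ((hL (l_mem _ _)).trans (pair_le h.mem kw.mem))
    ((m.km_le hx hH x1 ((hL (l_mem _ _)).trans (pair_le x1 w1)) J0).trans hle)
  have := m.ln_eq hw J1 (fun h0 => hnp (by
      rw [Set.pair_comm] at h0 ⊢; exact m.pg_pair hw hx h0)) (h.conj z) kw
    ((m.km_le hw hH w1 ((hL (r_mem _ _)).trans (pair_le x1 w1)) J1).trans (by
      rw [← Transfer.conj_eq_self_of_mem z1, ← conj_Fp, ← conj_cm]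
      exact Transfer.conj_mono z hle))
    ((hL (r_mem _ _)).trans (pair_le h.mem kw.mem))
  exact (mul_mem_cancel_left haM).1 (m.mem_of_conj_eq hx h this)

theorem pg_le (hx : x ∈ D) {P : Subgroup G} (hP : IsPGroup p P) (hxP : x ∈ P) (h : Ln p x M) :
    P ≤ M := by
  suffices P ≤ sInf {M | Ln p x M} from this.trans (sInf_le h)
  by_contra hn
  obtain ⟨g, hg, hg'⟩ := SetLike.exists_of_lt
    (Transfer.lt_inf_normalizer_of_lt hP (inf_lt_left.2 hn))
  have hx0 : x ∈ P ⊓ sInf {M | Ln p x M} := ⟨hxP, mem_sInf.2 fun _ h => h.mem⟩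
  have h1 := (mem_normalizer_iff.1 hg.2 x).1 hx0
  have h2 := (mem_normalizer_iff.1 (inv_mem hg.2) x).1 hx0
  have hy := m.conj x hx g
  have a1 : ∀ M, Ln p x M → g * x * g⁻¹ ∈ M := fun M h => mem_sInf.1 h1.2 M h
  have a2 : ∀ M, Ln p (g * x * g⁻¹) M → x ∈ M := fun M h => by
    have := h.conj g⁻¹
    rw [show g⁻¹ * (g * x * g⁻¹) * g⁻¹⁻¹ = x by group] at this
    exact Transfer.conj_mem_conj.1 (mem_sInf.1 h2.2 _ this)
  exact hg' ⟨hg.1, mem_sInf.2 fun M h => m.mem_of_same hx (hP.to_le (pair_le hxP h1.1))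
    (fun M => ⟨fun h => m.ln_of_mem hx hy h (a1 M h) a2,
      fun h => m.ln_of_mem hy hx h (a2 M h) a1⟩) h⟩

theorem ln_of_pg (hx : x ∈ D) (hy : y ∈ D) (hp : IsPGroup p (closure ({x, y} : Set G)))
    (h : Ln p x M) : Ln p y M :=
  m.ln_of_mem hx hy h (m.pg_le hx hp (l_mem x y) h (r_mem x y))
    fun _ h' => m.pg_le hy hp (r_mem x y) h' (l_mem x y)

theorem mem_of_pg (hx : x ∈ D) {g : G} (hp : IsPGroup p (closure ({x, g * x * g⁻¹} : Set G)))
    (h : Ln p x M) : g ∈ M :=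
  m.mem_of_same hx hp (fun _ => ⟨m.ln_of_pg hx (m.conj x hx g) hp,
    m.ln_of_pg (m.conj x hx g) hx (by rwa [Set.pair_comm])⟩) h

theorem common (hx : x ∈ D) (hy : y ∈ D) (hp : ¬ IsPGroup p (closure ({x, y} : Set G))) :
    ∃ M, Ln p x M ∧ Ln p y M := by
  obtain ⟨M, h, hle⟩ := m.exists_ln hx (m.km_KH hx (l_mem x y))
  have gd := fun {z} (hz : z ∈ D) hzM => zpowers_le_of_mem (m.good _ (m.two x hx y) z hz hzM)
  obtain ⟨f, hf, T, hT, h1, h2⟩ := exists_conj_pg (fun _ hg => pow_mem_Fp hg)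
    (pg_zp (m.ord x hx)) (gd hx (l_mem x y)) (pg_zp (m.ord y hy)) (gd hy (r_mem x y))
  have := (m.ln_of_pg hx (m.conj y hy f) (hT.to_le (pair_le (h1 (mem_zpowers x))
    (h2 (Transfer.conj_mem_conj.2 (mem_zpowers y))))) h).conj'
    (inv_mem (m.Fp_le_ln hx (l_mem x y) h hle hf.1))
  rw [show f⁻¹ * (f * y * f⁻¹) * f⁻¹⁻¹ = y by group] at this
  exact ⟨M, h, this⟩

end Ctx

end Cfsg.Lib.FTw
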