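import Cfsg.Agent.Lib.FTw.Sol
import Cfsg.Agent.Lib.FTw.End

/-! # `F₂` criterion: the induction -/

set_option autoImplicit false

namespace Cfsg.Lib.FTw

open Subgroup Cfsg.Lib.Core
open scoped Cfsg.Lib.Transfer commutatorElement

universe u

variable {G : Type*} [Group G] {G' : Type*} [Group G'] {p : ℕ} {x : G} [Finite G]

theorem Hy.map (h : Hy p x) {f : G →* G'} (hf : Function.Surjective f) : Hy p (f x) := fun y => by
  obtain ⟨y, rfl⟩ := hf y
  rw [← map_pair]
  exact map_Np_le f _ (mem_map_of_mem f (h y))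

theorem hy_of_mem {s : G} (hs : s ∈ zpowers x)
    (h : ∀ y : G, s ∈ Np p (closure ({x, y} : Set G))) : Hy p s := fun y =>
  Np_inf_le (pair_le (zpowers_le_of_mem (l_mem x y) hs) (r_mem x y)) ⟨h y, l_mem s y⟩

instance instNormalNpTop (p : ℕ) : (Np p (⊤ : Subgroup G)).Normal :=
  normal_of_top_le_normalizer (le_norm_Np ⊤)

instance instNormalFpTop (p : ℕ) : (Fp p (⊤ : Subgroup G)).Normal :=
  normal_of_top_le_normalizer (le_norm_Fp ⊤)

variable [Fact p.Prime]

theorem mem_Np_of_map {f : G →* G'} (hf : Function.Injective f) {K : Subgroup G} {g : G}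
    (h : f g ∈ Np p (K.map f)) : g ∈ Np p K := by
  refine le_Np_of_fit (N := (Np p (K.map f)).comap f)
    ((comap_mono (Np_le _)).trans (comap_map_eq_self_of_injective hf K).le)
    ((map_le_iff_le_comap.1 (le_norm_Np _)).trans (le_normalizer_comap f)) (fun g hg => ?_) h
  obtain ⟨n, hn⟩ := pow_mem_Fp (mem_comap.1 hg)
  have := hn.1
  rw [← map_fittingOf hf, ← map_pow] at this
  exact ⟨n, (mem_map_iff_mem hf).1 this⟩

theorem Hy.sub (h : Hy p x) {H : Subgroup G} (hx : x ∈ H) : Hy p (⟨x, hx⟩ : H) := fun y =>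
  mem_Np_of_map H.subtype_injective (by rw [map_pair]; exact h y)

theorem Np_solv (H : Subgroup G) : Group.IsSolvable (Np p H) := by
  haveI : ((Fp p H).subgroupOf (Np p H)).Normal :=
    (normal_subgroupOf_iff_le_normalizer (Fp_le_Np H)).2 ((Np_le H).trans (le_norm_Fp H))
  refine isSolvable_of_normal_quotient ((Fp p H).subgroupOf (Np p H))
    (isSolvable_of_isNilpotent (isNilpotent_subgroupOf _ (Fp_nil H)))
    (isSolvable_of_isPGroup (p := p) fun g => ?_)
  obtain ⟨g, rfl⟩ := QuotientGroup.mk_surjective g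
  obtain ⟨n, hn⟩ := pow_mem_Fp g.2
  exact ⟨n, by rw [← QuotientGroup.mk_pow, QuotientGroup.eq_one_iff]; exact hn⟩

theorem Np_le_top (N : Subgroup G) [N.Normal] : Np p N ≤ Np p ⊤ :=
  le_Np_of_fit le_top (le_normalizer_of_normal.trans (norm_Np N)) fun _ hg =>
    (pow_mem_Fp hg).imp fun _ hn => by
      rw [fittingOf_top]; exact fittingOf_le_fittingSubgroup N hn.1

theorem pg_zp' {k : ℕ} (h : x ^ p ^ k = 1) : IsPGroup p (zpowers x) :=
  isPGroup_subgroup_iff.2 (by
    rintro _ ⟨z, rfl⟩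
    exact ⟨k, by rw [← zpow_natCast, ← zpow_mul, mul_comm, zpow_mul, zpow_natCast, h, one_zpow]⟩)

/-- The step over `V = Z(O_r(G))`. -/
theorem sol_step {r : ℕ} [Fact r.Prime] (hx : Hy p x) {k : ℕ} (hk : x ^ p ^ k = 1)
    (hgen : ∀ N : Subgroup G, N.Normal → x ∈ N → N = ⊤) {V : Subgroup G} [V.Normal]
    (hV : V ≤ pCore r G) (hC : pCore r G ≤ centralizer (V : Set G))
    (h : QuotientGroup.mk' V x ∈ Np p (⊤ : Subgroup (G ⧸ V))) : x ∈ Np p ⊤ := by
  set C := centralizer (V : Set G)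
  set K := (Fp p (⊤ : Subgroup (G ⧸ V))).comap (QuotientGroup.mk' V)
  have hVr : IsPGroup r V := (pCore_isPGroup r G).to_le hV
  have hVC : V ≤ C := hV.trans hC
  have hGK : ∀ g : G, ∃ n, g ^ p ^ n ∈ K := fun g => by
    have := (hgen ((Np p (⊤ : Subgroup (G ⧸ V))).comap (QuotientGroup.mk' V)) inferInstance
      h).ge (mem_top g)
    exact (pow_mem_Fp (mem_comap.1 this)).imp fun n hn => by rwa [← map_pow] at hn
  have hK' : ∀ s ∈ K, ∀ L : Subgroup G, V ≤ L → ∀ n, s ^ p ^ n ∈ L → s ∈ L := fun s hs L hL n hn =>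
    mem_of_two_pow hn (hL (by
      have := pow_card_eq_one' (G := Fp p (⊤ : Subgroup (G ⧸ V))) (x := ⟨_, hs⟩)
      rw [← QuotientGroup.eq_one_iff, QuotientGroup.mk_pow]
      exact congrArg Subtype.val this)) ((Fp_cop _).symm.pow_left n)
  have h1 : ∀ s ∈ K, Commute (QuotientGroup.mk' C s) (QuotientGroup.mk' C x) := fun s hs => by
    have := mem_of_parts (g := s) (B := (centralizer {QuotientGroup.mk' C x}).comap
      (QuotientGroup.mk' C)) fun q hq t ht ⟨j, hj⟩ => ?_
    · exact mem_centralizer_singleton_iff.1 this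
    haveI := Fact.mk hq
    have htK := zpowers_le_of_mem hs ht
    have hc : ⁅t, x⁆ ∈ C := by
      by_cases hqp : q = p
      · subst hqp
        have := hVC (hK' t htK V le_rfl j (hj ▸ one_mem _))
        exact commutator_le_left C ⊤ (commutator_mem_commutator this (mem_top x))
      set Q := (pCore q (G ⧸ V)).comap (QuotientGroup.mk' V)
      have htQ : t ∈ Q := le_pCore_of_le_fittingSubgroup (zpowers_le_of_mem
        (fittingOf_top (G := G ⧸ V) ▸ htK.1)) (pg_zp' (k := j) (by rw [← map_pow, hj, map_one]))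
        (mem_zpowers _)
      have hQ : ∀ g ∈ Q, ∃ n, g ^ q ^ n ∈ V := fun g hg =>
        (isPGroup_subgroup_iff.1 (pCore_isPGroup q _) _ hg).imp fun n hn => by
          rwa [← map_pow, QuotientGroup.mk'_apply, QuotientGroup.eq_one_iff] at hn
      by_cases hqr : q = r
      · subst hqr
        have : Q ≤ pCore q G := le_pCore inferInstance (isPGroup_subgroup_iff.2 fun g hg => by
          obtain ⟨n, hn⟩ := hQ g hg
          obtain ⟨l, hl⟩ := isPGroup_subgroup_iff.1 hVr _ hn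
          exact ⟨n + l, by rw [pow_add, pow_mul, hl]⟩)
        exact commutator_le_left C ⊤ (commutator_mem_commutator (hC (this htQ)) (mem_top x))
      exact cm_mem_cent hqp hx (le_centralizer_iff_isMulCommutative.1 hVC)
        (cop_of_pgroup (Ne.symm hqr) hVr)
        (fun v hv => by simp [Q, (QuotientGroup.eq_one_iff v).2 hv]) hQ htQ
    rw [mem_comap, mem_centralizer_singleton_iff, ← commutatorElement_eq_one_iff_mul_comm,
      ← map_commutatorElement]
    exact (QuotientGroup.eq_one_iff _).2 hc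
  set K' := K.map (QuotientGroup.mk' C)
  have h2 := hgen ((centralizer (K' : Set (G ⧸ C))).comap (QuotientGroup.mk' C)) inferInstance
    (mem_centralizer_iff.2 (by rintro _ ⟨s, hs, rfl⟩; exact h1 s hs))
  haveI : Group.IsNilpotent (G ⧸ C) := by
    refine @Subgroup.isNilpotent_of_ker_le_center _ _ _ _ (QuotientGroup.mk' K')
      (fun a ha => mem_center_iff.2 fun g => ?_) (IsPGroup.isNilpotent (p := p) fun g => ?_)
    · obtain ⟨g, rfl⟩ := QuotientGroup.mk_surjective g
      rw [QuotientGroup.ker_mk'] at ha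
      exact (mem_centralizer_iff.1 (h2.ge (mem_top g)) a ha).symm
    · obtain ⟨g, rfl⟩ := QuotientGroup.mk_surjective g
      obtain ⟨g, rfl⟩ := QuotientGroup.mk_surjective g
      obtain ⟨n, hn⟩ := hGK g
      exact ⟨n, by
        rw [← QuotientGroup.mk_pow, QuotientGroup.eq_one_iff, ← QuotientGroup.mk_pow]
        exact mem_map_of_mem _ hn⟩
  have h3 := hgen ((pCore p (G ⧸ C)).comap (QuotientGroup.mk' C)) inferInstance
    (le_pCore_of_isNilpotent (pg_zp' (k := k) (by rw [← map_pow, hk, map_one])) (mem_zpowers _))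
  have hKC : K ≤ C := fun s hs => by
    obtain ⟨n, hn⟩ := isPGroup_subgroup_iff.1 (pCore_isPGroup p _) _ (h3.ge (mem_top s))
    rw [← map_pow, QuotientGroup.mk'_apply, QuotientGroup.eq_one_iff] at hn
    exact hK' s hs C hVC n hn
  have hKn : Group.IsNilpotent K := by
    refine @Subgroup.isNilpotent_of_ker_le_center _ _ _ _ ((QuotientGroup.mk' V).subgroupComap _)
      (fun a ha => mem_center_iff.2 fun g => Subtype.ext ?_) (Fp_nil _)
    have : (a : G) ∈ V := (QuotientGroup.eq_one_iff _).1 (congrArg Subtype.val ha)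
    exact (mem_centralizer_iff.1 (hKC g.2) _ this).symm
  exact le_Np_of_fit le_rfl le_normalizer (fun g _ => (hGK g).imp fun _ hn =>
    le_fittingOf le_top le_normalizer_of_normal hKn hn) (mem_top x)

theorem rad_step (hx : Hy p x) {k : ℕ} (hk : x ^ p ^ k = 1) (hn : x ∉ Np p ⊤)
    (good : ∀ H : Subgroup G, H ≠ ⊤ → ∀ z, (∃ k, z ^ p ^ k = 1) → Hy p z → z ∈ H → z ∈ Np p H)
    (hgen : ∀ z, (∃ k, z ^ p ^ k = 1) → Hy p z → z ∉ Np p ⊤ → ∀ N : Subgroup G, N.Normal →
      z ∈ N → N = ⊤) (rad : ∀ N : Subgroup G, N.Normal → Group.IsSolvable N → N = ⊥) :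
    False := by
  have h0 : Np p (⊤ : Subgroup G) = ⊥ := rad _ inferInstance (Np_solv _)
  obtain ⟨s, hs, ho⟩ := exists_mem_orderOf_eq_prime (H := zpowers x) (Fact.out : p.Prime)
    (((pg_zp' hk).card_eq_or_dvd).resolve_left fun h =>
      hn (zpowers_eq_bot.1 (card_eq_one.1 h) ▸ one_mem _))
  have Hs : Hy p s := hy_of_mem hs fun y => zpowers_le_of_mem (hx y) hs
  have ord : ∀ z ∈ {z | IsConj s z}, orderOf z = p := fun z hz => by
    obtain ⟨g, rfl⟩ := isConj_iff.1 hz
    exact ((MulAut.conj g).orderOf_eq s).trans ho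
  have pw : ∀ z ∈ {z | IsConj s z}, ∃ k, z ^ p ^ k = 1 := fun z hz =>
    ⟨1, by rw [pow_one, ← ord z hz, pow_orderOf_eq_one]⟩
  have hy : ∀ z ∈ {z | IsConj s z}, Hy p z := fun z hz => by
    obtain ⟨g, rfl⟩ := isConj_iff.1 hz
    exact Hs.map (f := (MulAut.conj g).toMonoidHom) (MulAut.conj g).surjective
  have nt : ∀ z ∈ {z | IsConj s z}, z ∉ Np p ⊤ := fun z hz h => by
    have := ord z hz
    rw [h0, mem_bot] at h
    rw [h, orderOf_one] at this
    exact (Fact.out : p.Prime).ne_one this.symm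
  have m : Ctx p {z | IsConj s z} :=
    ⟨ord, fun z hz g => IsConj.trans hz (isConj_iff.2 ⟨g, rfl⟩),
      fun z hz y hy => isConj_iff.1 ((IsConj.symm hz).trans hy), rad,
      fun H hH z hz => good H hH z (pw z hz) (hy z hz),
      fun z hz y h => nt z hz (h ▸ hy z hz y),
      top_le_iff.1 ((hgen s (pw s (IsConj.refl s)) Hs (nt s (IsConj.refl s))
        (normalClosure {s}) inferInstance (subset_normalClosure rfl)).ge.trans
        (closure_mono fun z hz => by
          obtain ⟨a, rfl, h⟩ := Group.mem_conjugatesOfSet_iff.1 hz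
          exact h))⟩
  exact m.false (IsConj.refl s)

theorem ind_step {G : Type u} [Group G] [Finite G] (ih : ∀ (H : Type u) [Group H] [Finite H],
    Nat.card H < Nat.card G → ∀ x : H, (∃ k, x ^ p ^ k = 1) → Hy p x → x ∈ Np p ⊤) {x : G} {k : ℕ}
    (hk : x ^ p ^ k = 1) (hx : Hy p x) (hn : x ∉ Np p ⊤) : False := by
  have good : ∀ H : Subgroup G, H ≠ ⊤ → ∀ z, (∃ k, z ^ p ^ k = 1) → Hy p z → z ∈ H →
      z ∈ Np p H := fun H hH z hj hz hzH => by
    obtain ⟨j, hj⟩ := hj
    have h1 := ih H (card_lt_of_ne_top hH) ⟨z, hzH⟩ ⟨j, Subtype.ext (by simpa using hj)⟩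
      (hz.sub hzH)
    have := map_Np_le H.subtype ⊤ (mem_map_of_mem H.subtype h1)
    rwa [← MonoidHom.range_eq_map, range_subtype] at this
  have hgen : ∀ z, (∃ k, z ^ p ^ k = 1) → Hy p z → z ∉ Np p ⊤ → ∀ N : Subgroup G, N.Normal →
      z ∈ N → N = ⊤ := fun z h1 h2 h3 N _ hz =>
    by_contra fun h => h3 (Np_le_top N (good N h z h1 h2 hz))
  rcases Classical.em (∀ N : Subgroup G, N.Normal → Group.IsSolvable N → N = ⊥) with rad | rad
  · exact rad_step hx hk hn good hgen rad
  push Not at rad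
  obtain ⟨N, hN, hs, h0⟩ := rad
  obtain ⟨r, hr, h1⟩ := exists_pCore_inf_ne_bot hs h0
  haveI := Fact.mk hr
  have hV : pCore r G ⊓ centralizer (pCore r G : Set G) ≠ ⊥ :=
    PGroup.inf_centralizer_ne_bot (pCore_isPGroup r G) (pCore_isPGroup r G) le_normalizer
      fun h => h1 (by rw [h, bot_inf_eq])
  obtain ⟨V, hVn, hV0, v1, v2⟩ : ∃ V : Subgroup G, V.Normal ∧ V ≠ ⊥ ∧ V ≤ pCore r G ∧
      pCore r G ≤ centralizer (V : Set G) :=
    ⟨_, inferInstance, hV, inf_le_left, le_centralizer_iff.1 inf_le_right⟩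
  have h2 := ih (G ⧸ V) (card_quotient_lt hV0) (QuotientGroup.mk' V x)
    ⟨k, by rw [← map_pow, hk, map_one]⟩ (hx.map (QuotientGroup.mk'_surjective V))
  exact hn (sol_step hx hk (hgen x ⟨k, hk⟩ hx hn) v1 v2 h2)

theorem mem_Np_top {G : Type u} [Group G] [Finite G] {x : G} (hk : ∃ k, x ^ p ^ k = 1)
    (hx : Hy p x) : x ∈ Np p ⊤ :=
  induction_on_card (P := fun G _ _ => ∀ x : G, (∃ k, x ^ p ^ k = 1) → Hy p x → x ∈ Np p ⊤) G
    (fun _ _ _ ih _ hk hx => hk.elim fun _ hk => Classical.byContradiction (ind_step ih hk hx))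
    x hk hx

/-- `F₂(G)`. -/
abbrev F2 (G : Type*) [Group G] [(fittingSubgroup G).Normal] : Subgroup G :=
  (fittingSubgroup (G ⧸ fittingSubgroup G)).comap (QuotientGroup.mk' (fittingSubgroup G))

theorem mem_F2_iff [(fittingSubgroup G).Normal] {k : ℕ} (hk : x ^ p ^ k = 1) :
    x ∈ F2 G ↔ x ∈ Np p ⊤ := by
  constructor
  · intro h
    refine le_Np_of_fit (N := (pCore p (G ⧸ fittingSubgroup G)).comap (QuotientGroup.mk' _)) le_top
      le_normalizer_of_normal (fun g hg => ?_) (le_pCore_of_le_fittingSubgroup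
        (zpowers_le_of_mem h) (pg_zp' (k := k) (by rw [← map_pow, hk, map_one])) (mem_zpowers _))
    refine (isPGroup_subgroup_iff.1 (pCore_isPGroup p _) _ hg).imp fun n hn => ?_
    rwa [← map_pow, QuotientGroup.mk'_apply, QuotientGroup.eq_one_iff, ← fittingOf_top] at hn
  · intro h
    refine le_fittingSubgroup (N := (Np p ⊤).map (QuotientGroup.mk' _))
      (Normal.map inferInstance _ (QuotientGroup.mk'_surjective _))
      (IsPGroup.isNilpotent (p := p) (isPGroup_subgroup_iff.2 ?_)) (mem_map_of_mem _ h)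
    rintro _ ⟨g, hg, rfl⟩
    refine (pow_mem_Fp hg).imp fun n hn => ?_
    rw [← map_pow, QuotientGroup.mk'_apply, QuotientGroup.eq_one_iff, ← fittingOf_top]
    exact hn.1

theorem mem_F2_sub {H : Subgroup G} [(fittingSubgroup H).Normal] {s : H} {k : ℕ}
    (hk : s ^ p ^ k = 1) : s ∈ F2 H ↔ s.1 ∈ Np p H := by
  have e : (⊤ : Subgroup H).map H.subtype = H := by rw [← MonoidHom.range_eq_map, range_subtype]
  rw [mem_F2_iff hk]
  exact ⟨fun h => by have := map_Np_le H.subtype ⊤ (mem_map_of_mem _ h); rwa [e] at this,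
    fun h => mem_Np_of_map H.subtype_injective (by rw [e]; exact h)⟩

end Cfsg.Lib.FTw
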