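import Cfsg.Agent.Lib.FTw.Two
import Cfsg.Agent.Lib.Coprime.Gaschutz
import Cfsg.Agent.Lib.Transfer.NormalComplement

/-! # `F₂` criterion: the counting argument over an abelian normal subgroup -/

set_option autoImplicit false

namespace Cfsg.Lib.FTw

open Subgroup Cfsg.Lib.Core
open scoped Cfsg.Lib.Transfer commutatorElement

variable {G : Type*} [Group G] {G' : Type*} [Group G'] {p q : ℕ} {x : G}

/-- The hypothesis on `x`. -/
def Hy (p : ℕ) (x : G) : Prop := ∀ y : G, x ∈ Np p (closure ({x, y} : Set G))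

theorem mem_of_two_pow {L : Subgroup G} {g : G} {a b : ℕ} (ha : g ^ a ∈ L) (hb : g ^ b ∈ L)
    (hc : a.Coprime b) : g ∈ L := by
  obtain ⟨u, v, huv⟩ : IsCoprime (a : ℤ) (b : ℤ) := Nat.isCoprime_iff_coprime.2 hc
  have := mul_mem (zpow_mem ha u) (zpow_mem hb v)
  rwa [← zpow_natCast, ← zpow_natCast, ← zpow_mul, ← zpow_mul, ← zpow_add, mul_comm _ u,
    mul_comm _ v, huv, zpow_one] at this

theorem cm_sup_le {B V : Subgroup G} [V.Normal] (x : G) :
    ⁅B ⊔ V, zpowers x⁆ ≤ ⁅B, zpowers x⁆ ⊔ V := by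
  have := (map_le_map_iff (f := QuotientGroup.mk' V) (H := ⁅B ⊔ V, zpowers x⁆)
    (K := ⁅B, zpowers x⁆)).1 (by
      rw [map_cm, map_cm, Subgroup.map_sup, QuotientGroup.map_mk'_self, sup_bot_eq])
  rwa [QuotientGroup.ker_mk'] at this

variable [Finite G]

theorem mem_of_parts {B : Subgroup G} {g : G}
    (h : ∀ q : ℕ, q.Prime → ∀ s ∈ zpowers g, (∃ k, s ^ q ^ k = 1) → s ∈ B) : g ∈ B := by
  have : B.subgroupOf (zpowers g) = ⊤ := eq_top_of_forall_sylow_le fun q hq =>
    ⟨default, fun s hs => h q hq.out s s.2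
      ((isPGroup_subgroup_iff.1 (default : Sylow q (zpowers g)).2 s hs).imp fun _ hk =>
        congrArg Subtype.val hk)⟩
  exact subgroupOf_eq_top.1 this (mem_zpowers g)

theorem mem_Fp_of_fit {H : Subgroup G} {b : G} (hb : b ∈ fittingOf H)
    (hc : (orderOf b).Coprime p) : b ∈ Fp p H :=
  ⟨hb, le_pPrimeCoreOf ((pPrimeCoreOf_le p _).trans (fittingOf_le H))
    ((le_normalizer_fittingOf H).trans (normalizer_le_normalizer_pPrimeCoreOf p _))
    (pPrimeCoreOf_coprime p _) (le_pPrimeCoreOf_of_isNilpotent inferInstance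
      (zpowers_le_of_mem hb) (by rwa [Nat.card_zpowers]) (mem_zpowers b))⟩

theorem le_Np_of_fit [Fact p.Prime] {H N : Subgroup G} (h : N ≤ H)
    (hn : H ≤ normalizer (N : Set G)) (hp : ∀ g ∈ N, ∃ n, g ^ p ^ n ∈ fittingOf H) :
    N ≤ Np p H := by
  refine le_Np h hn fun g hg => ?_
  obtain ⟨n, hf⟩ := hp g hg
  obtain ⟨a, ha, b, hb, ⟨k, hk⟩, hc, e⟩ := Transfer.exists_p_part_mul_p'_part (p := p) (g ^ p ^ n)
  refine ⟨n + k, ?_⟩
  have hab : Commute a b := by
    obtain ⟨i, rfl⟩ := ha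
    obtain ⟨j, rfl⟩ := hb
    exact Commute.zpow_zpow_self _ i j
  rw [pow_add, pow_mul, e, hab.mul_pow, hk, one_mul]
  exact pow_mem (mem_Fp_of_fit (zpowers_le_of_mem hf hb) hc) _

omit [Finite G] in
theorem le_of_le_sup {P T V : Subgroup G} [V.Normal] (hT : IsPGroup q T)
    (hV : (Nat.card V).Coprime q) [Finite G] (h1 : P ≤ T) (h2 : T ≤ P ⊔ V) : T ≤ P := fun t ht => by
  obtain ⟨a, ha, v, hv, rfl⟩ := mem_sup_of_normal_right.1 (h2 ht)
  rwa [← eq_of_pg hT hV (h1 ha) ht (by simpa using hv)]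

/-- The counting argument. -/
theorem cm_mem_cent [Fact p.Prime] [Fact q.Prime] (hq : q ≠ p) (hx : Hy p x) {V Q : Subgroup G}
    [V.Normal] [Q.Normal] (hV : IsMulCommutative V) (hc : (Nat.card V).Coprime q) (hVQ : V ≤ Q)
    (hQ : ∀ g ∈ Q, ∃ n, g ^ q ^ n ∈ V) {u : G} (hu : u ∈ Q) :
    ⁅u, x⁆ ∈ centralizer (V : Set G) := by
  set H := closure ({x, u} : Set G) ⊔ V
  set T := ⁅H ⊓ Q, zpowers x⁆ ⊔ V
  have hxH : x ∈ H := mem_sup_left (subset_closure (by simp))
  have huH : u ∈ H := mem_sup_left (subset_closure (by simp))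
  have nV : ∀ L : Subgroup G, L ≤ normalizer (V : Set G) := fun L => le_normalizer_of_normal
  have nA : H ≤ normalizer ((H ⊓ Q : Subgroup G) : Set G) :=
    le_normalizer_inf le_normalizer le_normalizer_of_normal
  have hTQ : T ≤ Q := sup_le ((cm_le (zp_le_norm (nA hxH))).trans inf_le_right) hVQ
  have nC : H ≤ normalizer ((⁅H ⊓ Q, zpowers x⁆ : Subgroup G) : Set G) := by
    have := normalizer_commutator_ge_left (H ⊓ Q) (zpowers x)
    refine sup_le ((closure_le _).2 ?_) fun v hv => this ⟨mem_sup_right hv, hVQ hv⟩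
    rintro z (rfl | rfl)
    · exact normalizer_commutator_ge_right _ _ (mem_zpowers _)
    · exact this ⟨huH, hu⟩
  have nT : H ≤ normalizer (T : Set G) := le_normalizer_sup nC (nV _)
  have key : ∀ v ∈ V, ∃ S : Subgroup G, IsPGroup q S ∧ S ≤ T ∧ T ≤ S ⊔ V ∧
      closure ({x, u * v} : Set G) ≤ normalizer (S : Set G) := fun v hv => by
    set L := closure ({x, u * v} : Set G)
    have hxL : x ∈ L := subset_closure (by simp)
    have huL : u * v ∈ L := subset_closure (by simp)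
    have hLH : L ≤ H := (closure_le _).2 (by
      rintro z (rfl | rfl)
      exacts [hxH, mul_mem huH (mem_sup_right hv)])
    have hHL : H ≤ L ⊔ V := sup_le ((closure_le _).2 (by
      rintro z (rfl | rfl)
      exacts [mem_sup_left hxL,
        (mul_mem_cancel_right (mem_sup_right hv)).1 (mem_sup_left huL)])) le_sup_right
    refine ⟨Oq q L ⊓ T, (pCoreOf_isPGroup q L).to_le inf_le_left, inf_le_right,
      sup_le ?_ le_sup_right, le_normalizer_inf (le_normalizer_map_subtype _) (hLH.trans nT)⟩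
    have hA : H ⊓ Q ≤ (L ⊓ Q) ⊔ V := fun a ha => by
      obtain ⟨l, hl, w, hw, rfl⟩ := mem_sup_of_normal_right.1 (hHL ha.1)
      exact mul_mem (mem_sup_left ⟨hl, (mul_mem_cancel_right (hVQ hw)).1 ha.2⟩) (mem_sup_right hw)
    refine ((commutator_mono hA le_rfl).trans (cm_sup_le x)).trans
      (sup_le (fun s hs => ?_) le_sup_right)
    have h1 : s ∈ Np p L := cm_le_of_mem (hx _) (inf_le_left.trans (le_norm_Np L)) hs
    have h2 : s ∈ T := mem_sup_left (commutator_mono (inf_le_inf_right _ hLH) le_rfl hs)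
    obtain ⟨n, hn⟩ := pow_mem_Fp h1
    obtain ⟨k, hk⟩ := hQ s (hTQ h2)
    refine mem_of_two_pow (a := p ^ n) ?_ (mem_sup_right hk) (Nat.Coprime.pow _ _
      ((Nat.coprime_primes (Fact.out : p.Prime) (Fact.out : q.Prime)).2 hq.symm))
    obtain ⟨a, ha, b, hb, ⟨j, hj⟩, hb', e⟩ :=
      Transfer.exists_p_part_mul_p'_part (p := q) (s ^ p ^ n)
    have hT := zpowers_le_of_mem (T.pow_mem h2 (p ^ n))
    obtain ⟨i, hi⟩ := hQ b (hTQ (hT hb))
    rw [e]
    refine mul_mem (mem_sup_left ⟨le_Oq_of_le_Fp (zpowers_le_of_mem (zpowers_le_of_mem hn ha))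
      ?_ (mem_zpowers a), hT ha⟩) (mem_sup_right (mem_of_pow_mem hi (hb'.pow_right i)))
    refine isPGroup_subgroup_iff.2 ?_
    rintro _ ⟨z, rfl⟩
    exact ⟨j, by rw [← zpow_natCast, ← zpow_mul, mul_comm, zpow_mul, zpow_natCast, hj, one_zpow]⟩
  obtain ⟨S, s1, s2, s3, s4⟩ := key 1 V.one_mem
  rw [mul_one] at s4
  have cop : (Nat.card S).Coprime (Nat.card V) := by
    obtain ⟨n, hn⟩ := IsPGroup.iff_card.1 s1
    rw [hn]
    exact hc.symm.pow_left n
  set W := ⁅V, S⁆
  have hWV : W ≤ V := commutator_le_left _ _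
  have nW : closure ({x, u} : Set G) ≤ normalizer (W : Set G) :=
    le_normalizer_commutator (nV _) s4
  have nx := nW (subset_closure (show x ∈ ({x, u} : Set G) by simp))
  have nu := nW (subset_closure (show u ∈ ({x, u} : Set G) by simp))
  have h0 := Coprime.centralizer_inf_commutator_eq_bot hV (nV S) cop
  have one : ∀ w ∈ W, w ∈ normalizer (S : Set G) → w = 1 := fun w hw hn =>
    mem_bot.1 (h0 ▸ ⟨mem_centralizer_iff.2 fun s hs => by
      have := eq_of_pg s1 hc hs ((mem_normalizer_iff.1 hn s).1 hs) (by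
        rw [show s⁻¹ * (w * s * w⁻¹) = s⁻¹ * w * s⁻¹⁻¹ * w⁻¹ by group]
        exact mul_mem (Normal.conj_mem inferInstance _ (hWV hw) _) (inv_mem (hWV hw)))
      exact eq_mul_inv_iff_mul_eq.1 this, hw⟩)
  let ψ : W → W := fun w => ⟨u⁻¹ * w * u⁻¹⁻¹ * w.1⁻¹,
    mul_mem ((mem_normalizer_iff.1 (inv_mem nu) _).1 w.2) (inv_mem w.2)⟩
  have sur : ∀ v : W, ∃ w : W, Commute w.1 x ∧ ψ w = v := fun ⟨v, hv⟩ => by
    obtain ⟨R, r1, r2, r3, r4⟩ := key v (hWV hv)
    obtain ⟨f, hf, U, hU, h1, h2⟩ := exists_conj_pg (X := T) (F := V)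
      (fun g hg => hQ g (hTQ hg)) r1 r2 s1 s2
    have eT := Transfer.conj_eq_self_of_mem hf.2
    have hfT : f ⋆ S ≤ T := eT ▸ Transfer.conj_mono f s2
    have a1 : f ⋆ S ≤ R := (le_inf h2 hfT).trans
      (le_of_le_sup (hU.to_le inf_le_left) hc (le_inf h1 r2) (inf_le_right.trans r3))
    have a2 : f ⋆ S = R := a1.antisymm (le_of_le_sup r1 hc a1 (r2.trans (by
      rw [← eT, ← Transfer.conj_eq_self_of_normal f V, ← Transfer.conj_sup]
      exact Transfer.conj_mono f s3)))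
    obtain ⟨w, hw, c, hc', rfl⟩ := Coprime.exists_commutator_mul_centralizer (nV S) cop
      (Or.inr (isSolvable_of_isMulCommutative _)) hf.1
    rw [← Transfer.conj_conj, Transfer.conj_eq_self_iff.2 (centralizer_le_normalizer _ hc'.2)] at a2
    have b : ∀ g ∈ closure ({x, u * v} : Set G), w⁻¹ * g * w ∈ normalizer (S : Set G) :=
      fun g hg => by
        have := r4 hg
        rwa [← a2, ← Transfer.conj_normalizer, Transfer.mem_conj] at this
    have b1 := one (x⁻¹ * w⁻¹ * x⁻¹⁻¹ * w) (mul_mem ((mem_normalizer_iff.1 (inv_mem nx) _).1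
      (inv_mem hw)) hw) (by
        have := mul_mem (inv_mem (s4 (subset_closure (show x ∈ ({x, u} : Set G) by simp))))
          (b x (subset_closure (by simp)))
        simpa [mul_assoc] using this)
    have b2 := one (u⁻¹ * w⁻¹ * u⁻¹⁻¹ * v * w) (mul_mem (mul_mem ((mem_normalizer_iff.1
      (inv_mem nu) _).1 (inv_mem hw)) hv) hw) (by
        have := mul_mem (inv_mem (s4 (subset_closure (show u ∈ ({x, u} : Set G) by simp))))
          (b (u * v) (subset_closure (by simp)))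
        simpa [mul_assoc] using this)
    refine ⟨⟨w, hw⟩, ?_, Subtype.ext ?_⟩
    · calc w * x = w * x * (x⁻¹ * w⁻¹ * x⁻¹⁻¹ * w) := by rw [b1, mul_one]
        _ = x * w := by group
    · calc u⁻¹ * w * u⁻¹⁻¹ * w⁻¹ = u⁻¹ * w * u * (u⁻¹ * w⁻¹ * u⁻¹⁻¹ * v * w) * w⁻¹ := by
            rw [b2, mul_one, inv_inv]
        _ = v := by group
  have inj : Function.Injective ψ :=
    Finite.injective_iff_surjective.2 fun v => (sur v).imp fun _ h => h.2
  have hxW : x ∈ centralizer (W : Set G) := mem_centralizer_iff.2 fun w hw => by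
    obtain ⟨w', h1, h2⟩ := sur (ψ ⟨w, hw⟩)
    rw [inj h2] at h1
    exact h1
  have hVW : V ≤ centralizer (V : Set G) := le_centralizer V
  have hTW : T ≤ centralizer (W : Set G) := sup_le (cm_le_of_mem hxW (inf_le_left.trans
    ((sup_le nW (normalizer_commutator_ge_left _ _)).trans (normalizer_le_normalizer_centralizer _))))
    (hVW.trans (centralizer_le hWV))
  have hW : W = ⊥ := le_bot_iff.1 (h0 ▸ le_inf (le_centralizer_iff.1 (s2.trans hTW)) le_rfl)
  exact (s3.trans (sup_le (le_centralizer_iff.1 (commutator_eq_bot_iff_le_centralizer.1 hW)) hVW))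
    (mem_sup_left (commutator_mem_commutator ⟨huH, hu⟩ (mem_zpowers x)))

end Cfsg.Lib.FTw
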