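import Cfsg.Agent.Lib.FTw.Four

/-! # `F₂` criterion: fixed points of a four-group -/

set_option autoImplicit false

namespace Cfsg.Lib.FTw

open Subgroup Cfsg.Lib.Core
open scoped Cfsg.Lib.Transfer commutatorElement

universe u

theorem map_cm {G G' : Type*} [Group G] [Group G'] (f : G →* G') (K : Subgroup G) (x : G) :
    ⁅K, zpowers x⁆.map f = ⁅K.map f, zpowers (f x)⁆ := by
  rw [map_commutator, MonoidHom.map_zpowers]

theorem map_pair {G G' : Type*} [Group G] [Group G'] (f : G →* G') (x t : G) :
    (closure ({x, t} : Set G)).map f = closure {f x, f t} := by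
  rw [MonoidHom.map_closure, Set.image_pair]

/-- the statement of `fix_four`. -/
def FixFour (G : Type u) [Group G] : Prop := ∀ (K P : Subgroup G) (x t : G),
    Group.IsNilpotent K → (Nat.card K).Coprime 2 → Fr x t →
    closure ({x, t} : Set G) ≤ normalizer (K : Set G) → ⁅K, zpowers x⁆ = K →
    (∀ a ∈ P, Commute a x ∧ Commute a t) →
    (∀ s, s = t ∨ s = x * t → ∀ c ∈ ⁅K ⊓ centralizer (zpowers s : Set G), zpowers x⁆,
      Commute c x → c ∈ P) →
    ∀ c ∈ K, Commute c x → Commute c t → c ∈ P

theorem fix_four (G : Type u) [Group G] [Finite G] : FixFour G := by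
  refine induction_on_card (P := fun G _ _ => FixFour G) G fun G _ _ ih => ?_
  intro K P x t hnil hK h hn hcm hP hU c hc hcx hct
  have hxA : x ∈ closure ({x, t} : Set G) := subset_closure (by simp)
  have htA : t ∈ closure ({x, t} : Set G) := subset_closure (by simp)
  by_cases htop : K ⊔ closure ({x, t} : Set G) = ⊤
  swap
  · set X := K ⊔ closure ({x, t} : Set G)
    have hKX : K ≤ X := le_sup_left
    let x' : X := ⟨x, mem_sup_right hxA⟩
    let t' : X := ⟨t, mem_sup_right htA⟩
    have hmap : (K.subgroupOf X).map X.subtype = K := by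
      rw [subgroupOf_map_subtype, inf_eq_left.2 hKX]
    have hci : ∀ {a b : X}, Commute (a : G) b → Commute a b := fun h => Subtype.ext h.eq
    refine ih X (card_lt_of_ne_top htop) (K.subgroupOf X) (P.subgroupOf X) x' t'
      (isNilpotent_subgroupOf _ hnil) (coprime_subgroupOf _ hK)
      ⟨Subtype.ext h.xx, Subtype.ext h.tt, hci h.cm⟩ ?_ ?_ ?_ ?_ ⟨c, hKX hc⟩ hc (hci hcx) (hci hct)
    · haveI : (K.subgroupOf X).Normal :=
        (normal_subgroupOf_iff_le_normalizer hKX).2 (sup_le le_normalizer hn)
      rw [normalizer_eq_top]; exact le_top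
    · exact map_injective X.subtype_injective (by rw [map_cm, hmap]; exact hcm)
    · exact fun a ha => ⟨hci (hP a ha).1, hci (hP a ha).2⟩
    · intro s hs d hd hdx
      refine hU s (by rcases hs with rfl | rfl <;> simp [x', t']) d ?_ (hdx.map X.subtype)
      have := mem_map_of_mem X.subtype hd
      rw [map_cm] at this
      refine commutator_mono ?_ le_rfl this
      rintro _ ⟨k, hk, rfl⟩
      exact ⟨hk.1, zp_le_cent ((comm_of_cent hk.2).map X.subtype)⟩
  have nrm : ∀ {N : Subgroup G}, K ≤ normalizer (N : Set G) →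
      closure ({x, t} : Set G) ≤ normalizer (N : Set G) → N.Normal :=
    fun h1 h2 => normal_of_top_le_normalizer (htop ▸ sup_le h1 h2)
  haveI hKn : K.Normal := nrm le_normalizer hn
  by_contra hcP
  have quo : ∀ N : Subgroup G, N.Normal → N ≤ K →
      (∀ n ∈ N, Commute n x → Commute n t → n ∈ P) → N = ⊥ := by
    intro N hN hNK hNP
    by_contra h0
    let f := QuotientGroup.mk' N
    have lift : ∀ {L : Subgroup G} {s : G}, s ∈ closure ({x, t} : Set G) → L ≤ K →
        zpowers s ≤ normalizer (L : Set G) →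
        L.map f ⊓ centralizer (zpowers (f s) : Set _) =
          (L ⊓ centralizer (zpowers s : Set G)).map f := fun {L s} hs hL hLs => by
      rw [← MonoidHom.map_zpowers]
      exact Coprime.map_inf_centralizer_map' f hLs (coprime_card_of_isPGroup
        (h.pg.to_le (zpowers_le_of_mem hs)) (coprime_of_le hL hK)) (solv_zp s L)
    obtain ⟨a, ha, hac⟩ := ih (G ⧸ N) (card_quotient_lt h0) (K.map f) (P.map f) (f x) (f t)
      (isNilpotent_map f hnil) (coprime_map f hK) (h.map f)
      (by rw [← map_pair]; exact map_le_norm f hn) (by rw [← map_cm, hcm])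
      (by rintro _ ⟨a, ha, rfl⟩; exact ⟨(hP a ha).1.map f, (hP a ha).2.map f⟩)
      (by
        intro s hs d hd hdx
        obtain ⟨s, hs', rfl⟩ : ∃ s₀, (s₀ = t ∨ s₀ = x * t) ∧ f s₀ = s := by
          rcases hs with rfl | rfl
          exacts [⟨t, Or.inl rfl, rfl⟩, ⟨x * t, Or.inr rfl, map_mul f _ _⟩]
        have hsA : s ∈ closure ({x, t} : Set G) := by
          rcases hs' with rfl | rfl
          exacts [htA, mul_mem hxA htA]
        rw [lift hsA le_rfl (zpowers_le_of_mem (hn hsA)), ← map_cm] at hd
        have hxn : zpowers x ≤ normalizer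
            ((K ⊓ centralizer (zpowers s : Set G) : Subgroup G) : Set G) :=
          le_normalizer_inf (zpowers_le_of_mem (hn hxA)) (le_normalizer_centralizer
            (zpowers_le_of_mem (cent_le_norm_zp (zp_le_cent
              (comm_of_cent (Fr.le_cent (Commute.refl x) h.cm hsA)).symm))))
        have hd' : d ∈ _ ⊓ centralizer (zpowers (f x) : Set _) := ⟨hd, zp_le_cent hdx⟩
        rw [lift hxA ((cm_le hxn).trans inf_le_left) (normalizer_commutator_ge_right _ _)] at hd'
        obtain ⟨d, hd₀, rfl⟩ := hd'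
        exact mem_map_of_mem f (hU s hs' d hd₀.1 (comm_of_cent hd₀.2)))
      (f c) (mem_map_of_mem f hc) (hcx.map f) (hct.map f)
    have := hNP _ (QuotientGroup.eq.1 hac) ((hP a ha).1.inv_left.mul_left hcx)
      ((hP a ha).2.inv_left.mul_left hct)
    exact hcP ((mul_mem_cancel_left (P.inv_mem ha)).1 this)
  set Z := K ⊓ centralizer (K : Set G) with hZdef
  haveI hZn : Z.Normal := inferInstance
  have hZc : IsMulCommutative Z := ⟨⟨fun a b => Subtype.ext (mem_centralizer_iff.1 b.2.2 _ a.2.1)⟩⟩
  have kN : ∀ {N : Subgroup G}, N ≤ Z → K ≤ normalizer (N : Set G) := fun hN =>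
    (le_centralizer_iff.1 (hN.trans inf_le_right)).trans (centralizer_le_normalizer _)
  have hZs : ∀ s, s = x ∨ s = t → ∀ z ∈ Z, Commute z s := by
    intro s hs
    have hsA : s ∈ closure ({x, t} : Set G) := by
      rcases hs with rfl | rfl
      exacts [hxA, htA]
    have hsn : zpowers s ≤ normalizer (Z : Set G) := by rw [normalizer_eq_top]; exact le_top
    have hsc : closure ({x, t} : Set G) ≤ centralizer (zpowers s : Set G) := by
      rcases hs with rfl | rfl
      exacts [Fr.le_cent (Commute.refl _) h.cm, Fr.le_cent h.cm.symm (Commute.refl _)]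
    have := quo ⁅Z, zpowers s⁆ (nrm (kN (cm_le hsn)) (le_normalizer_commutator
      (by rw [normalizer_eq_top]; exact le_top) (hsc.trans cent_le_norm_zp)))
      ((cm_le hsn).trans inf_le_left) fun n hn h1 h2 => by
        have : n ∈ centralizer (zpowers s : Set G) ⊓ ⁅Z, zpowers s⁆ :=
          ⟨zp_le_cent (by rcases hs with rfl | rfl <;> assumption), hn⟩
        rw [Coprime.centralizer_inf_commutator_eq_bot hZc hsn (coprime_card_of_isPGroup
          (h.pg.to_le (zpowers_le_of_mem hsA)) (coprime_of_le inf_le_left hK)), mem_bot] at this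
        rw [this]; exact one_mem P
    exact fun z hz => comm_of_cent (commutator_eq_bot_iff_le_centralizer.1 this hz)
  have hZP : Z ⊓ P = ⊥ := quo _ (nrm (kN inf_le_left) (((closure_le _).2 (by
      rintro s (rfl | rfl)
      · exact fun z hz => hZs _ (Or.inl rfl) z hz.1
      · exact fun z hz => hZs _ (Or.inr rfl) z hz.1) :
      closure {x, t} ≤ centralizer ((Z ⊓ P : Subgroup G) : Set G)).trans
        (centralizer_le_normalizer _)))
    (inf_le_left.trans inf_le_left) fun n hn _ _ => hn.2
  have hKc : K ≤ centralizer (K : Set G) := by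
    by_contra hne
    obtain ⟨n, hnK, hn1, hn2⟩ := PGroup.exists_mem_not_mem_commutator_mem le_rfl le_normalizer hne
    let f := QuotientGroup.mk' Z
    haveI : (K.map f).Normal := hKn.map f (QuotientGroup.mk'_surjective Z)
    let B := K ⊓ (centralizer ((K.map f : Subgroup _) : Set _)).comap f
    haveI : B.Normal := inferInstance
    refine hn1 (second_center hK h hn hcm (fun z hz => ⟨hZs _ (Or.inl rfl) z hz,
      hZs _ (Or.inr rfl) z hz⟩) ?_ (B := B) inf_le_left
      (by rw [normalizer_eq_top]; exact le_top) ?_ ⟨hnK, ?_⟩)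
    · intro s hs z hz hzc
      have hzK : z ∈ K := ((commutator_mono inf_le_left le_rfl).trans hcm.le) hz
      exact mem_bot.1 (hZP ▸ (⟨⟨hzK, hzc⟩, hU s hs z hz (hZs _ (Or.inl rfl) z ⟨hzK, hzc⟩)⟩ :
        z ∈ Z ⊓ P))
    · refine le_trans ((commutator_le_iff_map_mk' Z _ _).2 ?_) inf_le_right
      exact commutator_eq_bot_iff_le_centralizer.2 (map_le_iff_le_comap.2 inf_le_right)
    · rintro _ ⟨k, hk, rfl⟩
      refine (commutatorElement_eq_one_iff_commute.1 ?_).symm
      rw [← map_commutatorElement]
      refine (QuotientGroup.eq_one_iff _).2 ⟨?_, hn2 k hk⟩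
      rw [commutatorElement_def]
      exact K.mul_mem (K.mul_mem (K.mul_mem hnK hk) (K.inv_mem hnK)) (K.inv_mem hk)
  have : K = ⊥ := by
    rw [← hcm, commutator_eq_bot_iff_le_centralizer]
    exact fun k hk => zp_le_cent (hZs _ (Or.inl rfl) k ⟨hk, hKc hk⟩)
  rw [this, mem_bot] at hc
  exact hcP (hc ▸ one_mem P)

end Cfsg.Lib.FTw
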