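import Cfsg.Agent.Lib.FTw.Bas

/-! # `F₂` criterion: uniqueness of maximal `q`-members -/

set_option autoImplicit false

namespace Cfsg.Lib.FTw

open Subgroup Cfsg.Lib.Core
open scoped Cfsg.Lib.Transfer commutatorElement

variable {G : Type*} [Group G] {p q : ℕ} {x : G} {A : Subgroup G}

theorem bar_cent {H : Subgroup G} {T : Subgroup H} [T.Normal] {L M : Subgroup G} (hL : L ≤ H)
    (hM : M ≤ H) : (L.subgroupOf H).map (QuotientGroup.mk' T) ≤
      centralizer (((M.subgroupOf H).map (QuotientGroup.mk' T) : Subgroup _) : Set _) ↔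
    ⁅L, M⁆ ≤ T.map H.subtype := by
  rw [← commutator_eq_bot_iff_le_centralizer, ← commutator_le_iff_map_mk',
    ← commutator_subgroupOf_map hL hM]
  exact (map_le_map_iff_of_injective H.subtype_injective).symm

theorem bar_norm {H : Subgroup G} {Q : Type*} [Group Q] (f : H →* Q) {L M : Subgroup G}
    (h : L ≤ normalizer (M : Set G)) : (L.subgroupOf H).map f ≤
      normalizer (((M.subgroupOf H).map f : Subgroup _) : Set _) :=
  map_le_norm f ((comap_mono h).trans (le_normalizer_comap _))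

variable [Finite G] [Fact p.Prime] [Fact q.Prime]

/-- relative `A × B` lemma. -/
theorem axb (hq : q ≠ p) (hx : orderOf x = p) {T T' W : Subgroup G} (hT' : IsPGroup q T')
    (hW : IsPGroup q W) (hTT : T ≤ T') (h1 : T' ≤ normalizer (T : Set G))
    (h2 : W ≤ normalizer (T : Set G)) (h3 : zpowers x ≤ normalizer (T : Set G))
    (h4 : T' ≤ normalizer (W : Set G)) (h5 : zpowers x ≤ normalizer (W : Set G))
    (h6 : ⁅T', zpowers x⁆ ≤ T) (h7 : ⁅W ⊓ normalizer (T' : Set G), zpowers x⁆ ≤ T) :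
    ⁅W, zpowers x⁆ ≤ T := by
  set H := normalizer (T : Set G)
  have hT : (T.subgroupOf H).map H.subtype = T := by
    rw [subgroupOf_map_subtype, inf_eq_left.2 le_normalizer]
  have key := Coprime.p_times_q (p := q)
    (P := (T'.subgroupOf H).map (QuotientGroup.mk' (T.subgroupOf H)))
    (Q := ((zpowers x).subgroupOf H).map (QuotientGroup.mk' (T.subgroupOf H)))
    (U := (W.subgroupOf H).map (QuotientGroup.mk' (T.subgroupOf H)))
    (hT'.comap_subtype.map _)
    (coprime_map _ (coprime_subgroupOf _ (cop_of_pgroup hq.symm (pg_zp hx))))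
    (hW.comap_subtype.map _) ((bar_cent h1 h3).2 (hT.symm ▸ h6)) (bar_norm _ h4)
    (bar_norm _ h5) ?_
  · rw [commutator_comm, ← hT]; exact (bar_cent h3 h2).1 key
  · rintro _ ⟨⟨w, hw, rfl⟩, hc⟩
    refine (bar_cent (inf_le_left.trans h2) h3).2 (hT.symm ▸ h7) ⟨w, ⟨hw, ?_⟩, rfl⟩
    refine Transfer.mem_normalizer_of_conj_le (g := (w : G))
      (Transfer.conj_le_iff.2 fun t ht => ?_)
    have := mem_centralizer_iff.1 hc (QuotientGroup.mk' _ ⟨t, h1 ht⟩) ⟨⟨t, h1 ht⟩, ht, rfl⟩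
    rw [← map_mul, ← map_mul, QuotientGroup.mk'_apply, QuotientGroup.mk'_apply,
      QuotientGroup.eq, mem_subgroupOf] at this
    have h := T'.mul_mem ht (hTT ((mem_normalizer_iff.1 w.2 _).1 this))
    have e : (w : G) * t * (w : G)⁻¹ = t * (w * ((t * w)⁻¹ * (w * t)) * (w : G)⁻¹) := by group
    exact e.symm ▸ (h : t * (w * ((t * w)⁻¹ * (w * t)) * (w : G)⁻¹) ∈ T')

namespace Ctx

variable {D : Set G} (m : Ctx p D)
include m

theorem uq (hq : q ≠ p) (hx : x ∈ D) (hxA : x ∈ A) (hA : A ≤ centralizer (zpowers x : Set G))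
    {O : Subgroup G} (hO : IsPGroup q O) (hOx : O ≤ centralizer (zpowers x : Set G))
    (hAO : A ≤ normalizer (O : Set G))
    (hC : ∀ U, Kq q A x U → ∀ c ∈ U, Commute c x → c ∈ O) {J : Subgroup G} :
    Kq q A x J → J ≠ ⊥ → ∀ {R₁ R₂ : Subgroup G}, Mx (Kq q A x) R₁ → Mx (Kq q A x) R₂ →
      J ≤ R₁ → J ≤ R₂ → R₁ = R₂ := by
  induction J using WellFoundedGT.induction with | ind J ih => ?_
  intro hJ h0 R₁ R₂ h1 h2 hJ1 hJ2
  have hxo := m.ord x hx
  set I := J ⊔ O ⊓ normalizer (J : Set G) with hI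
  have hIp : IsPGroup q I := hJ.pg.to_sup_of_normal_left' hO.to_inf_left inf_le_right
  have hAI : A ≤ normalizer (I : Set G) := le_normalizer_sup hJ.inv
    (le_normalizer_inf hAO (Coprime.le_normalizer_normalizer hJ.inv))
  have hIJ : ⁅I, zpowers x⁆ = J := by
    rw [hI, Coprime.commutator_sup_of_le_centralizer inf_le_right (inf_le_left.trans hOx), hJ.cm]
  -- a member above `J` normalizing `T` controls `[O_q(N(T)), x]`
  have ctl : ∀ {R U T : Subgroup G}, Mx (Kq q A x) R → Kq q A x U → J < U → U ≤ R → J ≤ T →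
      T ≤ I → A ≤ normalizer (T : Set G) → U ≤ normalizer (T : Set G) →
      U ≤ ⁅Oq q (normalizer (T : Set G)), zpowers x⁆ ∧
        ⁅Oq q (normalizer (T : Set G)), zpowers x⁆ ≤ R := by
    intro R U T hR hU hJU hUR hJT hTI hAT hUT
    have hH := m.norm_ne' (fun h => h0 (le_bot_iff.1 (h ▸ hJT))) (hIp.to_le hTI).isNilpotent
    have hUW := m.kq_le hq hx hH hxA hAT hUT hU
    obtain ⟨R₃, h3, hR₃⟩ := exists_mx (m.kq_KH hq hx hxA hA hAT)
    exact ⟨hUW, ih U hJU hU (ne_bot_of_gt hJU) hR₃ hR (hUW.trans h3) hUR ▸ h3⟩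
  have step : ∀ {R : Subgroup G}, Mx (Kq q A x) R → J < R →
      ∃ U, Kq q A x U ∧ J < U ∧ U ≤ R ∧ U ≤ normalizer (I : Set G) := by
    intro R hR hJR
    obtain ⟨U, V, hU, hJU, hUR, hJV, hVU, hUV, hAV, hV, -⟩ := exists_UV hq hxo hxA hA hJ hR.1 hJR
    have hVI : V ≤ I := le_of_cm_le hxo (cop_of_pgroup hq (hU.pg.to_le hVU))
      (zp_le_norm (hAV hxA)) (hV.le.trans le_sup_left) fun c hc hcx =>
        mem_sup_right ⟨hC U hU c (hVU hc) hcx, hV ▸ normalizer_commutator_ge_left _ _ hc⟩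
    obtain ⟨T, -, ⟨hJT, hTI, hAT, U, hU, hJU, hUR, hUT⟩, hmax⟩ := exists_maximal_ge
      (P := fun T => J ≤ T ∧ T ≤ I ∧ A ≤ normalizer (T : Set G) ∧
        ∃ U, Kq q A x U ∧ J < U ∧ U ≤ R ∧ U ≤ normalizer (T : Set G))
      ⟨hJV, hVI, hAV, U, hU, hJU, hUR, hUV⟩
    rcases hTI.eq_or_lt with rfl | hlt
    · exact ⟨U, hU, hJU, hUR, hUT⟩
    exfalso
    obtain ⟨hUW, hWR⟩ := ctl hR hU hJU hUR hJT hTI hAT hUT
    have hW := m.kq_KH (q := q) hq hx hxA hA hAT
    set W := ⁅Oq q (normalizer (T : Set G)), zpowers x⁆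
    have hTT := Transfer.lt_inf_normalizer_of_lt hIp hlt
    set T' := I ⊓ normalizer (T : Set G)
    have hAT' : A ≤ normalizer (T' : Set G) :=
      le_normalizer_inf hAI (Coprime.le_normalizer_normalizer hAT)
    have hT'W : T' ≤ normalizer (W : Set G) := fun t ht => by
      obtain ⟨j, hj, o, ho, rfl⟩ := Transfer.exists_mul_of_mem_sup inf_le_right ht.1
      refine mul_mem (le_normalizer (hUW (hJU.le hj))) (norm_cm (le_normalizer_pCoreOf q _ ?_)
        (comm_of_cent (hOx ho.1)))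
      exact (mul_mem_cancel_left (le_normalizer (hJT hj))).1 ht.2
    have hAN : A ≤ normalizer ((W ⊓ normalizer (T' : Set G) : Subgroup G) : Set G) :=
      le_normalizer_inf hW.inv (Coprime.le_normalizer_normalizer hAT')
    have hN := kq_cm hq hxo hxA hA hW.pg.to_inf_left hAN
    have hJN : J ≤ ⁅W ⊓ normalizer (T' : Set G), zpowers x⁆ :=
      hJ.cm.symm.le.trans (commutator_mono
        (le_inf (hJU.le.trans hUW) ((hJT.trans hTT.le).trans le_normalizer)) le_rfl)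
    have hcl := cm_le (zp_le_norm (hAN hxA))
    have hNJ : ⁅W ⊓ normalizer (T' : Set G), zpowers x⁆ ≤ T := by
      rcases hJN.eq_or_lt with h | h
      · exact h ▸ hJT
      · exact absurd (hmax T' ⟨hJT.trans hTT.le, inf_le_left, hAT', _, hN, h,
          hcl.trans (inf_le_left.trans hWR), hcl.trans inf_le_right⟩ hTT.le) hTT.ne'
    have hWT := axb hq hxo hIp.to_inf_left hW.pg hTT.le inf_le_right
      ((cm_le (zp_le_norm (le_normalizer_pCoreOf q _ (hAT hxA)))).trans (pCoreOf_le q _))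
      (zp_le_norm (hAT hxA)) hT'W (zp_le_norm (hW.inv hxA))
      (((commutator_mono inf_le_left le_rfl).trans hIJ.le).trans hJT) hNJ
    rw [hW.cm] at hWT
    have : W ≤ J := hW.cm.symm.le.trans
      ((commutator_mono (hWT.trans hTI) le_rfl).trans hIJ.le)
    exact hJU.not_ge (hUW.trans this)
  rcases hJ1.eq_or_lt with rfl | hlt1
  · exact (h1.2 _ h2.1 hJ2).symm
  rcases hJ2.eq_or_lt with rfl | hlt2
  · exact h2.2 _ h1.1 hJ1
  obtain ⟨U₁, a1, b1, c1, d1⟩ := step h1 hlt1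
  obtain ⟨U₂, a2, b2, c2, d2⟩ := step h2 hlt2
  obtain ⟨e1, f1⟩ := ctl h1 a1 b1 c1 le_sup_left le_rfl hAI d1
  obtain ⟨-, f2⟩ := ctl h2 a2 b2 c2 le_sup_left le_rfl hAI d2
  exact ih U₁ b1 a1 (ne_bot_of_gt b1) h1 h2 c1 (e1.trans f2)

end Ctx

end Cfsg.Lib.FTw
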