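import Cfsg.Agent.Lib.FTw.UQ
import Cfsg.Agent.Lib.FTw.Two
import Cfsg.Agent.Lib.Coprime.Flavell2
import Cfsg.Agent.S0215
import Cfsg.Agent.S0205

/-! # `F₂` criterion: a nontrivial `q`-member lies in a unique maximal one -/

set_option autoImplicit false

namespace Cfsg.Lib.FTw

open Subgroup Cfsg.Lib.Core
open scoped Cfsg.Lib.Transfer commutatorElement

variable {G : Type*} [Group G] [Finite G] {p q : ℕ} {x : G} {D : Set G}

/-- `q`-members for `A = ⟨x⟩`. -/
abbrev Kx (q : ℕ) (x : G) : Subgroup G → Prop := Kq q (zpowers x) x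

omit [Finite G] in
theorem zp_cent (x : G) : zpowers x ≤ centralizer (zpowers x : Set G) :=
  zpowers_le_of_mem (zp_le_cent (Commute.refl x))

theorem mem_of_mul_mem {H : Subgroup G} {a b : G} (h : Commute a b)
    (hc : (orderOf a).Coprime (orderOf b)) (hab : a * b ∈ H) : a ∈ H ∧ b ∈ H := by
  have ha : a ∈ H := mem_of_pow_mem (m := orderOf b) (by
    have := H.pow_mem hab (orderOf b)
    rwa [h.mul_pow, pow_orderOf_eq_one, mul_one] at this) hc
  exact ⟨ha, (mul_mem_cancel_left ha).1 hab⟩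

omit [Finite G] in
theorem exists_not_commute {K : Subgroup G} (h : ⁅K, zpowers x⁆ ≠ ⊥) : ∃ k ∈ K, ¬ Commute k x := by
  by_contra hc
  push Not at hc
  exact h (commutator_eq_bot_iff_le_centralizer.2 fun k hk => zp_le_cent (hc k hk))

namespace Ctx

omit [Finite G] in
theorem cent_ne (m : Ctx p D) {s : G} (hs : s ≠ 1) : centralizer (zpowers s : Set G) ≠ ⊤ :=
  fun h => m.norm_ne (L := zpowers s) (by simpa using hs) (isSolvable_of_isMulCommutative _)
    (top_le_iff.1 (h ▸ cent_le_norm_zp))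

variable [Fact p.Prime] [Fact q.Prime]

theorem cover (m : Ctx p D) (hq : q ≠ p) (hx : x ∈ D) {J : Subgroup G} (hJ : Kx q x J) {c k y : G}
    (hc : Commute c x) (hk : k ∈ J) (hy : y ∈ zpowers x) :
    ∃ H : Subgroup G, H ≠ ⊤ ∧ x ∈ H ∧ c ∈ H ∧ ⁅k, y⁆ ∈ ⁅Oq q H, zpowers x⁆ := by
  have hcop := cop_of_pgroup hq hJ.pg
  obtain ⟨H, h1, h2, h3, h4⟩ := m.p1 hx hcop hJ.inv hk hc
  obtain ⟨j, hj, he⟩ := exists_conj_mem (m.ord x hx) hcop hJ.inv hk h2 h4
  have hn : zpowers x ≤ normalizer ((J ⊓ H : Subgroup G) : Set G) :=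
    le_normalizer_inf hJ.inv (le_normalizer_of_le (zpowers_le_of_mem h2))
  refine ⟨H, h1, h2, h3, m.kq_le hq hx h1 (mem_zpowers x) (zpowers_le_of_mem h2)
    ((cm_le hn).trans inf_le_right)
    (kq_cm hq (m.ord x hx) (mem_zpowers x) (zp_cent x) hJ.pg.to_inf_left hn) ?_⟩
  have : ⁅k, y⁆ = ⁅j, y⁆ := by
    obtain ⟨i, rfl⟩ := hy
    simp only [commutatorElement_def]
    rw [← conj_zpow, ← conj_zpow, he]
  rw [this]
  exact commutator_mem_commutator hj hy

theorem o_odd (m : Ctx p D) (hp : p ≠ 2) (hq : q ≠ p) (hx : x ∈ D) {U : Subgroup G}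
    (hU : Kx q x U) {c : G} (hc : c ∈ U) (hcx : Commute c x) :
    c ∈ Oq q (centralizer (zpowers x : Set G)) := by
  have hcop := cop_of_pgroup hq hU.pg
  let x' : normalizer (U : Set G) := ⟨x, hU.inv (mem_zpowers x)⟩
  let φ : MulAut U := U.normalizerMonoidHom x'
  have hφ : ∀ (i : ℕ) (u : U), ((φ ^ i) u : G) = x ^ i * u * (x ^ i)⁻¹ := fun i u => by
    rw [← map_pow]; rfl
  haveI := isSolvable_of_isPGroup hU.pg
  have hmain := Flav.main (x := φ) (p := p) ((Fact.out : p.Prime).odd_of_ne_two hp) (by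
    rw [← map_pow, show x' ^ p = 1 from Subtype.ext (by
      simpa [x', m.ord x hx] using pow_orderOf_eq_one x), map_one]) (coprime_iff_not_dvd.1 hcop)
  have hfx : ∀ {s : U}, s ∈ Flav.fx φ ↔ Commute (s : G) x := fun {s} => by
    rw [Flav.mem_fx, Subtype.ext_iff, show (φ s : G) = x * s * x⁻¹ from rfl,
      mul_inv_eq_iff_eq_mul]
    exact eq_comm
  have h1 : U ≤ (Flav.cmS φ ⊤).map U.subtype := by
    refine hU.cm.symm.le.trans (commutator_le.2 fun k hk y hy => ?_)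
    obtain ⟨i, rfl⟩ : ∃ i : ℕ, x ^ i = y := mem_powers_iff_mem_zpowers.2 hy
    refine ⟨_, Flav.mem_cmS (h := ⟨k⁻¹, U.inv_mem hk⟩) (mem_top _) i, ?_⟩
    simp [hφ, commutatorElement_def, mul_assoc]
  have h2 : (⟨c, hc⟩ : U) ∈ Flav.DD φ := by
    rw [← hmain]
    obtain ⟨c', h, e⟩ := h1 hc
    exact ⟨by rwa [show c' = ⟨c, hc⟩ from Subtype.ext e] at h, hfx.2 hcx⟩
  have h3 : Flav.DD φ ≤ (Oq q (centralizer (zpowers x : Set G))).subgroupOf U := by
    refine iSup_le fun h s hs => ?_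
    by_contra hn
    obtain ⟨g, hg, hng⟩ := PLocal.exists_conj_not_isPGroup_of_not_mem_pCore_map
      (zp_le_cent (hfx.1 hs.2)) hn
    obtain ⟨H, a1, a2, a3, a4⟩ := m.p1 hx hcop hU.inv (U.inv_mem h.2) (comm_of_cent hg)
    have hs' : Flav.cm φ h ≤ (Np p H).subgroupOf U := (closure_le _).2 (by
      rintro _ ⟨i, rfl⟩
      have e : ((h⁻¹ * (φ ^ i) h : U) : G) = ((h : G)⁻¹ * x * (h : G)⁻¹⁻¹) ^ i * (x ^ i)⁻¹ := by
        rw [conj_pow]; simp [hφ, mul_assoc]
      show ((h⁻¹ * (φ ^ i) h : U) : G) ∈ Np p H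
      rw [e]
      exact mul_mem (pow_mem (m.good H a1 _ (m.conj x hx _) a4) i)
        (inv_mem (pow_mem (m.good H a1 x hx a2) i)))
    have hsO : (s : G) ∈ Oq q H :=
      le_Oq_of_le_Np hq (L := U ⊓ Np p H) inf_le_right hU.pg.to_inf_left ⟨s.2, hs' hs.1⟩
    refine hng ((pCoreOf_isPGroup q H).to_le ((closure_le _).2 ?_))
    rintro z (rfl | rfl)
    · exact hsO
    · exact (mem_normalizer_iff.1 (le_normalizer_pCoreOf q H a3) _).1 hsO
  exact h3 h2

omit [Fact p.Prime] [Fact q.Prime] in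
theorem exists_t (m : Ctx 2 D) (hx : x ∈ D) : ∃ t ∈ D, t ≠ x ∧ Commute x t := by
  by_contra hc
  push Not at hc
  obtain ⟨P, hP⟩ := (pg_zp (m.ord x hx)).exists_le_sylow
  have hxP : x ∈ (P : Subgroup G) := hP (mem_zpowers x)
  have hPC : (P : Subgroup G) ≤ centralizer (zpowers x : Set G) := by
    by_contra hn
    obtain ⟨g, hg, hg'⟩ := SetLike.exists_of_lt (Transfer.lt_inf_normalizer_of_lt P.isPGroup'
      (inf_lt_left.2 hn : (P : Subgroup G) ⊓ centralizer (zpowers x : Set G) < P))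
    have h1 := (mem_normalizer_iff.1 hg.2 x).1 ⟨hxP, zp_le_cent (Commute.refl x)⟩
    refine hc _ (m.conj x hx g) (fun e => hg' ⟨hg.1, zp_le_cent ?_⟩) (comm_of_cent h1.2).symm
    exact mul_inv_eq_iff_eq_mul.1 e
  obtain ⟨N, hN, hodd, hcm⟩ := Agent.S0215.result P x (m.ord x hx) hxP fun g hg => by
    by_contra hne
    exact hc _ (m.conj x hx g) hne (comm_of_cent (hPC hg)).symm
  rw [m.rad N hN (Agent.S0205.result hodd)] at hcm
  refine m.cent_ne (m.ne_one hx) (top_le_iff.1 fun g _ => zp_le_cent ?_)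
  exact (commutatorElement_eq_one_iff_commute.1 (mem_bot.1 (hcm g))).symm

omit [Fact p.Prime] in
theorem top_two (m : Ctx 2 D) (hq : q ≠ 2) (hx : x ∈ D) :
    ∃ R, Kx q x R ∧ ∀ J, Kx q x J → J ≤ R := by
  obtain ⟨t, ht, htx, hxt⟩ := m.exists_t hx
  have sq : ∀ {s}, s ∈ D → s * s = 1 := fun {s} hs => by
    rw [← pow_two, ← m.ord s hs, pow_orderOf_eq_one]
  have h : Fr x t := ⟨sq hx, sq ht, hxt⟩
  set A := closure ({x, t} : Set G)
  have hxA : x ∈ A := subset_closure (by simp)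
  have htA : t ∈ A := subset_closure (by simp)
  have hAA : A ≤ centralizer (A : Set G) := fun a ha b hb =>
    congrArg Subtype.val (h.comm.is_comm.comm (⟨b, hb⟩ : A) ⟨a, ha⟩)
  have hAs : ∀ {s}, s ∈ A → centralizer (A : Set G) ≤ centralizer (zpowers s : Set G) :=
    fun hs => centralizer_le (zpowers_le_of_mem hs)
  have hA := hAA.trans (hAs hxA)
  have sA : ∀ {s}, s = t ∨ s = x * t → s ∈ A ∧ s ≠ 1 := by
    rintro s (rfl | rfl)
    · exact ⟨htA, m.ne_one ht⟩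
    · refine ⟨mul_mem hxA htA, fun e => htx ?_⟩
      rw [← inv_eq_of_mul_eq_one_right e, inv_eq_of_mul_eq_one_right h.xx]
  have inv : ∀ {U H : Subgroup G}, Kq q A x U → A ≤ H →
      A ≤ normalizer ((U ⊓ H : Subgroup G) : Set G) :=
    fun hU hH => le_normalizer_inf hU.inv (le_normalizer_of_le hH)
  have uq := fun J => m.uq (J := J) hq hx hxA hA
    (O := Oq q (centralizer (zpowers x : Set G)) ⊔ Oq q (centralizer (A : Set G)))
    ((pCoreOf_isPGroup q _).to_sup_of_normal_left' (pCoreOf_isPGroup q _)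
      (((pCoreOf_le q _).trans (hAs hxA)).trans (le_normalizer_pCoreOf q _)))
    (sup_le (pCoreOf_le q _) ((pCoreOf_le q _).trans (hAs hxA)))
    (le_normalizer_sup (hA.trans (le_normalizer_pCoreOf q _))
      (hAA.trans (le_normalizer_pCoreOf q _))) (by
      intro U hU c hc hcx
      have hn := zpowers_le_of_mem (inv hU hA htA)
      refine le_of_cm_le (m.ord t ht) (cop_of_pgroup hq hU.pg.to_inf_left) hn
        ((m.cm_le_Oq hq ht (m.cent_ne (m.ne_one hx)) (hA htA) inf_le_right hU.pg.to_inf_left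
          hn).trans le_sup_left) (fun d hd hdt => mem_sup_right ?_) ⟨hc, zp_le_cent hcx⟩
      refine fix_four G U _ x t hU.pg.isNilpotent (cop_of_pgroup hq hU.pg) h hU.inv hU.cm
        (fun a ha => ⟨comm_of_cent (hAs hxA (pCoreOf_le q _ ha)),
          comm_of_cent (hAs htA (pCoreOf_le q _ ha))⟩) ?_ d hd.1 (comm_of_cent hd.2) hdt
      intro s hs e he hex
      have hAC := hAA.trans (hAs (sA hs).1)
      have he' := m.cm_le_Oq hq hx (m.cent_ne (sA hs).2) (hAC hxA) inf_le_right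
        hU.pg.to_inf_left (zpowers_le_of_mem (inv hU hAC hxA)) he
      have hes := comm_of_cent (pCoreOf_le q _ he')
      refine pCoreOf_inf_le (hAs (sA hs).1) ⟨he', le_centralizer_iff.1 (Fr.le_cent hex ?_)
        (mem_zpowers e)⟩
      rcases hs with rfl | rfl
      · exact hes
      · have := hex.inv_right.mul_right hes
        rwa [inv_mul_cancel_left] at this)
  -- two maximal members meeting a common proper subgroup nontrivially coincide
  have same : ∀ {R R' H : Subgroup G}, Mx (Kq q A x) R → Mx (Kq q A x) R' → H ≠ ⊤ → A ≤ H →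
      ⁅R ⊓ H, zpowers x⁆ ≠ ⊥ → ⁅R' ⊓ H, zpowers x⁆ ≠ ⊥ → R = R' := by
    intro R R' H hR hR' hH hAH h1 h2
    obtain ⟨R₃, h3, hR₃⟩ := exists_mx (m.kq_KH (q := q) hq hx hxA hA hAH)
    have : ∀ {R : Subgroup G}, Mx (Kq q A x) R → ⁅R ⊓ H, zpowers x⁆ ≠ ⊥ → R = R₃ := fun hR h1 => by
      have hk := kq_cm hq (m.ord x hx) hxA hA hR.1.pg.to_inf_left (inv hR.1 hAH)
      have hl := cm_le (zpowers_le_of_mem (inv hR.1 hAH hxA))
      exact uq _ hk h1 hR hR₃ (hl.trans inf_le_left)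
        ((m.kq_le hq hx hH hxA hAH (hl.trans inf_le_right) hk).trans h3)
    rw [this hR h1, this hR' h2]
  have mixed : ∀ {R R' : Subgroup G}, Mx (Kq q A x) R → Mx (Kq q A x) R' →
      ⁅R ⊓ centralizer (zpowers t : Set G), zpowers x⁆ ≠ ⊥ →
      ⁅R' ⊓ centralizer (zpowers (x * t) : Set G), zpowers x⁆ ≠ ⊥ → R = R' := by
    intro R R' hR hR' h1 h2
    obtain ⟨k₁, hk₁, n1⟩ := exists_not_commute h1
    obtain ⟨k₂, hk₂, n2⟩ := exists_not_commute h2
    have cop : ∀ {U : Subgroup G} {s k : G}, Kq q A x U → s ∈ A → k ∈ U →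
        (orderOf s).Coprime (orderOf k) := fun hU hs hk => Coprime.orderOf_coprime_of_mem
      (coprime_card_of_isPGroup h.pg (cop_of_pgroup hq hU.pg)) hs hk
    set H := closure ({k₂ * x * k₂⁻¹, t * k₁} : Set G)
    have a1 : k₂ * x * k₂⁻¹ ∈ H := subset_closure (by simp)
    obtain ⟨a2, a3⟩ := mem_of_mul_mem (H := H) (comm_of_cent hk₁.2).symm (cop hR.1 htA hk₁.1)
      (subset_closure (by simp))
    have hx' := zpowers_le_of_mem (hR'.1.inv hxA)
    have c1 : Commute ⁅k₂, x⁆ (x * t) := by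
      have b1 := comm_of_cent hk₂.2
      have b2 := (Commute.refl x).mul_right hxt
      rw [commutatorElement_def]
      exact ((b1.mul_left b2).mul_left b1.inv_left).mul_left b2.inv_left
    have a4 := (mem_of_mul_mem (H := H) c1
      (cop hR'.1 (mul_mem hxA htA) (cm_le hx' (cm_mem hk₂.1))).symm (by
        rw [commutatorElement_def, ← mul_assoc, inv_mul_cancel_right]
        exact mul_mem a1 a2)).2
    have a5 : x ∈ H := (mul_mem_cancel_right a2).1 a4
    refine same hR hR' (m.two _ (m.conj x hx k₂) _)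
      ((closure_le _).2 (by rintro z (rfl | rfl) <;> assumption)) (fun e => n1 ?_)
      (m.cm_inf_ne hx (cop_of_pgroup hq hR'.1.pg) hx' hk₂.1 n2 a5 a1)
    exact comm_of_cent (commutator_eq_bot_iff_le_centralizer.1 e ⟨hk₁.1, a3⟩)
  have alt : ∀ {R : Subgroup G}, Kq q A x R → R ≠ ⊥ →
      ⁅R ⊓ centralizer (zpowers t : Set G), zpowers x⁆ ≠ ⊥ ∨
      ⁅R ⊓ centralizer (zpowers (x * t) : Set G), zpowers x⁆ ≠ ⊥ := by
    intro R hR h0
    by_contra hc
    push Not at hc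
    refine h0 (hR.cm.symm.trans (commutator_eq_bot_iff_le_centralizer.2 ?_))
    exact h.gen (cop_of_pgroup hq hR.pg) hR.inv (fun c _ hc => zp_le_cent hc)
      (fun c h1 h2 => commutator_eq_bot_iff_le_centralizer.1 hc.1 ⟨h1, zp_le_cent h2⟩)
      (fun c h1 h2 => commutator_eq_bot_iff_le_centralizer.1 hc.2 ⟨h1, zp_le_cent h2⟩)
  have all : ∀ {R R' : Subgroup G}, Mx (Kq q A x) R → Mx (Kq q A x) R' → R = R' := by
    intro R R' hR hR'
    by_cases h0 : R = ⊥
    · exact (hR.2 _ hR'.1 (h0 ▸ bot_le)).symm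
    by_cases h0' : R' = ⊥
    · exact hR'.2 _ hR.1 (h0' ▸ bot_le)
    have s1 := sA (Or.inl rfl)
    have s2 := sA (Or.inr rfl)
    rcases alt hR.1 h0 with a | a <;> rcases alt hR'.1 h0' with b | b
    · exact same hR hR' (m.cent_ne s1.2) (hAA.trans (hAs s1.1)) a b
    · exact mixed hR hR' a b
    · exact (mixed hR' hR b a).symm
    · exact same hR hR' (m.cent_ne s2.2) (hAA.trans (hAs s2.1)) a b
  obtain ⟨R, -, hR⟩ := exists_mx (m.kq_KH (q := q) hq hx hxA hA le_rfl)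
  refine ⟨R, ⟨hR.1.pg, zpowers_le_of_mem (hR.1.inv hxA), hR.1.cm⟩, fun J hJ =>
    hJ.cm.symm.le.trans (commutator_le.2 fun k hk y hy => ?_)⟩
  obtain ⟨H, -, h2, h3, h4⟩ := m.cover hq hx hJ hxt.symm hk hy
  obtain ⟨R', h5, hR'⟩ := exists_mx (m.kq_KH (q := q) (H := H) hq hx hxA hA
    ((closure_le _).2 (by rintro z (rfl | rfl) <;> assumption)))
  exact all hR' hR ▸ h5 h4

/-- (U_q) -/
theorem uq1 (m : Ctx p D) (hq : q ≠ p) (hx : x ∈ D) {J R₁ R₂ : Subgroup G} (hJ : Kx q x J)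
    (h0 : J ≠ ⊥) (h1 : Mx (Kx q x) R₁) (h2 : Mx (Kx q x) R₂) (hJ1 : J ≤ R₁) (hJ2 : J ≤ R₂) :
    R₁ = R₂ := by
  by_cases hp : p = 2
  · subst hp
    obtain ⟨R, hR, hle⟩ := m.top_two hq hx
    rw [← h1.2 R hR (hle _ h1.1), ← h2.2 R hR (hle _ h2.1)]
  · exact m.uq hq hx (mem_zpowers x) (zp_cent x) (pCoreOf_isPGroup q _) (pCoreOf_le q _)
      ((zp_cent x).trans (le_normalizer_pCoreOf q _))
      (fun U hU c hc hcx => m.o_odd hp hq hx hU hc hcx) hJ h0 h1 h2 hJ1 hJ2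

end Ctx

end Cfsg.Lib.FTw
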