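import Cfsg.Agent.Lib.FTw.UQ1

/-! # `F₂` criterion: maximal members are TI and normalized by `C(x)` -/

set_option autoImplicit false

namespace Cfsg.Lib.FTw

open Subgroup Cfsg.Lib.Core
open scoped Cfsg.Lib.Transfer commutatorElement

variable {G : Type*} [Group G] {p q r : ℕ} {x : G} {D : Set G}

theorem conj_inv_norm {K : Subgroup G} (g : G) (h : zpowers x ≤ normalizer (K : Set G)) :
    zpowers (g * x * g⁻¹) ≤ normalizer ((g ⋆ K : Subgroup G) : Set G) := by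
  rw [← Transfer.conj_zpowers, ← Transfer.conj_normalizer]; exact Transfer.conj_mono g h

theorem conj_cm (g x : G) (K : Subgroup G) :
    g ⋆ ⁅K, zpowers x⁆ = ⁅g ⋆ K, zpowers (g * x * g⁻¹)⁆ := by
  rw [Transfer.conj_commutator, Transfer.conj_zpowers]

theorem Km.conj {K : Subgroup G} (h : Km p x K) (g : G) : Km p (g * x * g⁻¹) (g ⋆ K) :=
  ⟨isNilpotent_map _ h.nil, coprime_map _ h.cop, conj_inv_norm g h.inv, by rw [← conj_cm, h.cm]⟩

theorem kx_conj {K : Subgroup G} (h : Kx q x K) (g : G) : Kx q (g * x * g⁻¹) (g ⋆ K) :=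
  ⟨Transfer.isPGroup_conj h.pg g, conj_inv_norm g h.inv, by rw [← conj_cm, h.cm]⟩

theorem mx_conj {P : G → Subgroup G → Prop} (hP : ∀ x K, P x K → ∀ g, P (g * x * g⁻¹) (g ⋆ K))
    {K : Subgroup G} (h : Mx (P x) K) (g : G) : Mx (P (g * x * g⁻¹)) (g ⋆ K) := by
  refine ⟨hP _ _ h.1 g, fun L hL hle => ?_⟩
  have := hP _ _ hL g⁻¹
  rw [show g⁻¹ * (g * x * g⁻¹) * g⁻¹⁻¹ = x by group] at this
  rw [← h.2 _ this (Transfer.conj_le_iff_le_inv_conj.1 hle), Transfer.conj_inv_conj]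

namespace Ctx

variable [Finite G] [Fact p.Prime] (m : Ctx p D)
include m

theorem kx_cm [Fact q.Prime] (hq : q ≠ p) (hx : x ∈ D) {K : Subgroup G} (hK : IsPGroup q K)
    (h : zpowers x ≤ normalizer (K : Set G)) : Kx q x ⁅K, zpowers x⁆ :=
  kq_cm hq (m.ord x hx) (mem_zpowers x) (zp_cent x) hK h

theorem kx_le [Fact q.Prime] (hq : q ≠ p) (hx : x ∈ D) {H L : Subgroup G} (hH : H ≠ ⊤)
    (hxH : x ∈ H) (hL : L ≤ H) (h : Kx q x L) : L ≤ ⁅Oq q H, zpowers x⁆ :=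
  m.kq_le hq hx hH (mem_zpowers x) (zpowers_le_of_mem hxH) hL h

theorem cq [Fact q.Prime] (hq : q ≠ p) (hx : x ∈ D) {Q : Subgroup G} (hQ : Mx (Kx q x) Q)
    (h0 : Q ≠ ⊥) {c : G} (hc : Commute c x) : c ∈ normalizer (Q : Set G) := by
  have hcop := cop_of_pgroup hq hQ.1.pg
  obtain ⟨k, hk, hkx⟩ := exists_not_commute (hQ.1.cm.symm ▸ h0)
  obtain ⟨H, h1, h2, h3, h4⟩ := m.p1 hx hcop hQ.1.inv hk hc
  have hn : zpowers x ≤ normalizer ((Q ⊓ H : Subgroup G) : Set G) :=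
    le_normalizer_inf hQ.1.inv (le_normalizer_of_le (zpowers_le_of_mem h2))
  have hJ := m.kx_cm hq hx hQ.1.pg.to_inf_left hn
  have hJ0 := m.cm_inf_ne hx hcop hQ.1.inv hk hkx h2 h4
  have hJW := m.kx_le hq hx h1 h2 ((cm_le hn).trans inf_le_right) hJ
  obtain ⟨Q', h5, hQ'⟩ := exists_mx (m.kx_cm hq hx (pCoreOf_isPGroup q H)
    (zpowers_le_of_mem (le_normalizer_pCoreOf q H h2)))
  obtain rfl := m.uq1 hq hx hJ hJ0 hQ hQ' ((cm_le hn).trans inf_le_left) (hJW.trans h5)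
  have hc' := mx_conj (P := fun x => Kx q x) (fun _ _ h g => kx_conj h g) hQ c
  rw [hc.eq, mul_inv_cancel_right] at hc'
  refine Transfer.conj_eq_self_iff.1 (m.uq1 hq hx hJ hJ0 hc' hQ (hJW.trans ?_) (hJW.trans h5))
  rw [← Transfer.conj_eq_self_iff.2 (norm_cm (le_normalizer_pCoreOf q H h3) hc)]
  exact Transfer.conj_mono c h5

theorem pq_half [Fact q.Prime] [Fact r.Prime] (hq : q ≠ p) (hr : r ≠ p) (hqr : r ≠ q)
    (hx : x ∈ D) {Q R : Subgroup G} (hQ : Mx (Kx q x) Q) (hR : Mx (Kx r x) R) {Q₀ : Subgroup G} :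
    Kx q x Q₀ → Q₀ ≠ ⊥ → Q₀ ≤ Q → ∀ {R₀ : Subgroup G}, Kx r x R₀ → R₀ ≠ ⊥ → R₀ ≤ R →
      Q₀ ≤ centralizer (R₀ : Set G) → Q ≤ centralizer (R₀ : Set G) := by
  induction Q₀ using WellFoundedGT.induction with | ind Q₀ ih => ?_
  intro hQ₀ h0 hle R₁ hR₁ h1 hle₁ hc₁
  rcases hle.eq_or_lt with rfl | hlt
  · exact hc₁
  have hxo := m.ord x hx
  have hn : zpowers x ≤ normalizer ((R ⊓ centralizer (Q₀ : Set G) : Subgroup G) : Set G) :=
    le_normalizer_inf hR.1.inv (le_normalizer_centralizer hQ₀.inv)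
  have hR₀ := m.kx_cm hr hx hR.1.pg.to_inf_left hn
  have hcl := cm_le hn
  set R₀ := ⁅R ⊓ centralizer (Q₀ : Set G), zpowers x⁆
  have h10 : R₁ ≤ R₀ := hR₁.cm.symm.le.trans
    (commutator_mono (le_inf hle₁ (le_centralizer_iff.1 hc₁)) le_rfl)
  have h00 : R₀ ≠ ⊥ := fun h => h1 (le_bot_iff.1 (h ▸ h10))
  have hQR : Q₀ ≤ centralizer (R₀ : Set G) := le_centralizer_iff.1 (hcl.trans inf_le_right)
  obtain ⟨U, V, hU, hJU, hUQ, hJV, hVU, hUV, hAV, hV, hmin⟩ :=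
    exists_UV hq hxo (mem_zpowers x) (zp_cent x) hQ₀ hQ.1 hlt
  have hVp := hU.pg.to_le hVU
  have hVR : V ≤ normalizer (R₀ : Set G) := le_of_cm_le hxo (cop_of_pgroup hq hVp) hAV
    (hV.le.trans (hQR.trans (centralizer_le_normalizer _))) fun c hc hcx =>
      norm_cm (le_normalizer_inf (zpowers_le_of_mem (m.cq hr hx hR
        (fun h => h1 (le_bot_iff.1 (h ▸ hle₁))) hcx)) (le_normalizer_centralizer
        (zpowers_le_of_mem (hV ▸ normalizer_commutator_ge_left _ _ hc))) (mem_zpowers c)) hcx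
  have hRq := cop_of_pgroup hqr hR₀.pg
  have key : ∀ u ∈ U, u * x * u⁻¹ ∈
      normalizer ((V ⊓ centralizer (R₀ : Set G) : Subgroup G) : Set G) := fun u hu => by
    have hx' := m.conj x hx u
    have hn' : u * x * u⁻¹ ∈ normalizer (V : Set G) :=
      mul_mem (mul_mem (hUV hu) (hAV (mem_zpowers x))) (inv_mem (hUV hu))
    generalize u * x * u⁻¹ = y at hx' hn'
    refine Transfer.mem_normalizer_of_conj_le (Transfer.conj_le_iff.2 fun a ha =>
      ⟨(mem_normalizer_iff.1 hn' a).1 ha.1, fun s hs => ?_⟩)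
    have has : Commute a s := (mem_centralizer_iff.1 ha.2 s hs).symm
    obtain ⟨b1, b2⟩ := mem_of_mul_mem (H := closure {y, a * s}) has
      (Coprime.orderOf_coprime_of_mem (coprime_card_of_isPGroup hVp hRq) ha.1 hs)
      (subset_closure (by simp))
    have b3 : y ∈ closure ({y, a * s} : Set G) := subset_closure (by simp)
    have hH := m.two y hx' (a * s)
    generalize closure ({y, a * s} : Set G) = H at b1 b2 b3 hH
    have v1 : ⁅a⁻¹, y⁆ ∈ V := cm_le (zpowers_le_of_mem hn') (cm_mem (V.inv_mem ha.1))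
    have v2 : ⁅a⁻¹, y⁆ ∈ Oq q H := le_Oq_of_le_Np hq (L := V ⊓ Np p H) inf_le_right
      hVp.to_inf_left ⟨v1, cm_le_of_mem (m.good H hH y hx' b3) (le_norm_Np H)
        (cm_mem (H.inv_mem b1))⟩
    have v3 : ⁅⁅a⁻¹, y⁆, s⁆ ∈ Oq q H ⊓ R₀ := by
      constructor
      · rw [show ⁅⁅a⁻¹, y⁆, s⁆ = ⁅a⁻¹, y⁆ * (s * ⁅a⁻¹, y⁆⁻¹ * s⁻¹) by
          rw [commutatorElement_def ⁅a⁻¹, y⁆]; group]
        exact mul_mem v2 ((mem_normalizer_iff.1 (le_normalizer_pCoreOf q H b2) _).1 (inv_mem v2))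
      · rw [commutatorElement_def ⁅a⁻¹, y⁆]
        exact R₀.mul_mem ((mem_normalizer_iff.1 (hVR v1) s).1 hs) (R₀.inv_mem hs)
    rw [inf_eq_bot_of_isPGroup_of_coprime (pCoreOf_isPGroup q H) hRq, mem_bot] at v3
    have := has.mul_left (commutatorElement_eq_one_iff_commute.1 v3)
    rw [show a * ⁅a⁻¹, y⁆ = y * a * y⁻¹ by rw [commutatorElement_def]; group] at this
    exact this.symm
  have hVc : V ≤ centralizer (R₀ : Set G) := by
    refine (hmin _ (le_inf hJV hQR) (hU.cm.symm.le.trans (commutator_le.2 ?_))).trans inf_le_right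
    rintro u hu _ ⟨i, rfl⟩
    have := key 1 (one_mem U)
    rw [one_mul, inv_one, mul_one] at this
    rw [commutatorElement_def, ← conj_zpow]
    exact mul_mem (zpow_mem (key u hu) i) (inv_mem (zpow_mem this i))
  have hH := m.norm_ne' (fun h => h0 (le_bot_iff.1 (h ▸ hJV))) hVp.isNilpotent
  have hxH := hAV (mem_zpowers x)
  refine (ih U hJU hU (ne_bot_of_gt hJU) hUQ hR₀ h00 (hcl.trans inf_le_left) ?_).trans
    (centralizer_le h10)
  refine le_centralizer_of_coprime_of_le (Fp_nil (p := p) (normalizer (V : Set G))) ?_ ?_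
    (coprime_card_of_isPGroup hU.pg hRq)
  · exact hU.cm.symm.le.trans (m.cm_le_Fp hx hH hxH hUV (cop_of_pgroup hq hU.pg) hU.inv)
  · exact hR₀.cm.symm.le.trans (m.cm_le_Fp hx hH hxH
      ((le_centralizer_iff.1 hVc).trans (centralizer_le_normalizer _))
      (cop_of_pgroup hr hR₀.pg) hR₀.inv)

omit m in
theorem le_of_Oq {K L : Subgroup G} (hK : Km p x K)
    (h : ∀ q : ℕ, ∀ _ : Fact q.Prime, q ≠ p → Oq q K ≤ L) : K ≤ L := by
  refine (isNilpotent_iff_le_iSup_pCoreOf.1 hK.nil).trans (iSup_le fun q => ?_)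
  by_cases hq : (q : ℕ) = p
  · rw [hq, eq_bot_of_isPGroup_of_coprime (pCoreOf_isPGroup p K)
      (coprime_of_le (pCoreOf_le p K) hK.cop)]
    exact bot_le
  · exact h q ⟨q.2⟩ hq

/-- every member above the nontrivial member `J` normalizes a fixed nontrivial `Q`. -/
theorem exists_H (hx : x ∈ D) {J : Subgroup G} (hJ : Km p x J) (h0 : J ≠ ⊥) :
    ∃ H : Subgroup G, H ≠ ⊤ ∧ (∀ c, Commute c x → c ∈ H) ∧ ∀ K, Km p x K → J ≤ K → K ≤ H := by
  have nO : ∀ {K : Subgroup G} (q : ℕ), Km p x K → zpowers x ≤ normalizer (Oq q K : Set G) :=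
    fun q hK => hK.inv.trans (normalizer_le_normalizer_pCoreOf q _)
  obtain ⟨q, _, hq, hJ0⟩ : ∃ q : ℕ, ∃ _ : Fact q.Prime, q ≠ p ∧ ⁅Oq q J, zpowers x⁆ ≠ ⊥ := by
    by_contra hc
    push Not at hc
    exact h0 (hJ.cm.symm.trans (commutator_eq_bot_iff_le_centralizer.2 (le_of_Oq hJ
      fun q i hq => commutator_eq_bot_iff_le_centralizer.1 (hc q i hq))))
  have hJq := m.kx_cm hq hx (pCoreOf_isPGroup q J) (nO q hJ)
  obtain ⟨Q, hJQ, hQ⟩ := exists_mx hJq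
  have hQ0 : Q ≠ ⊥ := fun h => hJ0 (le_bot_iff.1 (h ▸ hJQ))
  refine ⟨_, m.norm_ne' hQ0 hQ.1.pg.isNilpotent, fun c hc => m.cq hq hx hQ hQ0 hc,
    fun K hK hJK => le_of_Oq hK fun r _ hr => le_of_cm_le (m.ord x hx)
      (cop_of_pgroup hr (pCoreOf_isPGroup r K)) (nO r hK) ?_ fun c _ hc => m.cq hq hx hQ hQ0 hc⟩
  have hR₀ := m.kx_cm hr hx (pCoreOf_isPGroup r K) (nO r hK)
  obtain ⟨R, hle, hR⟩ := exists_mx hR₀
  by_cases hrq : r = q
  · subst hrq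
    have := m.uq1 hq hx hJq hJ0 hQ hR hJQ ((commutator_mono (le_pCoreOf_of_isNilpotent hK.nil
      ((pCoreOf_le r J).trans hJK) (pCoreOf_isPGroup r J)) le_rfl).trans hle)
    exact (this ▸ hle).trans le_normalizer
  by_cases h1 : ⁅Oq r K, zpowers x⁆ = ⊥
  · rw [h1]; exact bot_le
  refine (le_centralizer_iff.1 (m.pq_half hq hr hrq hx hQ hR hJq hJ0 hJQ hR₀ h1 hle ?_)).trans
    (centralizer_le_normalizer _)
  exact le_centralizer_of_coprime_of_le hK.nil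
    (((cm_le (nO q hJ)).trans (pCoreOf_le q J)).trans hJK)
    ((cm_le (nO r hK)).trans (pCoreOf_le r K))
    (coprime_card_of_isPGroup hJq.pg (cop_of_pgroup hrq hR₀.pg))

/-- (U) -/
theorem um (hx : x ∈ D) {J K₁ K₂ : Subgroup G} (hJ : Km p x J) (h0 : J ≠ ⊥)
    (h1 : Mx (Km p x) K₁) (h2 : Mx (Km p x) K₂) (hJ1 : J ≤ K₁) (hJ2 : J ≤ K₂) : K₁ = K₂ := by
  obtain ⟨H, hH, hC, hK⟩ := m.exists_H hx hJ h0
  have hxH := hC x (Commute.refl x)
  rw [← h1.2 _ (m.km_KH hx hxH) (m.km_le hx hH hxH (hK _ h1.1 hJ1) h1.1),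
    ← h2.2 _ (m.km_KH hx hxH) (m.km_le hx hH hxH (hK _ h2.1 hJ2) h2.1)]

theorem cn (hx : x ∈ D) {K : Subgroup G} (hK : Mx (Km p x) K) (h0 : K ≠ ⊥) {c : G}
    (hc : Commute c x) : c ∈ normalizer (K : Set G) := by
  obtain ⟨H, hH, hC, hle⟩ := m.exists_H hx hK.1 h0
  have hxH := hC x (Commute.refl x)
  rw [← hK.2 _ (m.km_KH hx hxH) (m.km_le hx hH hxH (hle _ hK.1 le_rfl) hK.1)]
  exact norm_cm (le_norm_Fp H (hC c hc)) hc

end Ctx

end Cfsg.Lib.FTw
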